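import Mathlib

/-! Binary primitive affine groups: basic lemmas on the point stabilizer `H ≤ GL(V)`. -/

set_option autoImplicit false

namespace Cfsg.Agent.AffBin

variable {p : ℕ} [Fact p.Prime] {V : Type*} [AddCommGroup V] [Module (ZMod p) V]

@[simp] lemma mul_app (f g : V ≃ₗ[ZMod p] V) (v : V) : (f * g) v = f (g v) := rfl
@[simp] lemma one_app (v : V) : (1 : V ≃ₗ[ZMod p] V) v = v := rfl
@[simp] lemma app_inv (f : V ≃ₗ[ZMod p] V) (v : V) : f (f⁻¹ v) = v := f.apply_symm_apply v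
@[simp] lemma inv_app (f : V ≃ₗ[ZMod p] V) (v : V) : f⁻¹ (f v) = v := f.symm_apply_apply v

lemma gl_ext {f g : V ≃ₗ[ZMod p] V} (h : ∀ v, f v = g v) : f = g := LinearEquiv.ext h

/-- `a` and `b` are in one `H`-orbit. -/
def Rel (H : Subgroup (V ≃ₗ[ZMod p] V)) (a b : V) : Prop := ∃ h ∈ H, h a = b

/-- The binary property (partial maps preserving the orbital structure extend). -/
def BP (H : Subgroup (V ≃ₗ[ZMod p] V)) : Prop :=
  ∀ S : Set (V × V), (∀ x ∈ S, Rel H x.1 x.2) →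
    (∀ x ∈ S, ∀ y ∈ S, Rel H (x.1 - y.1) (x.2 - y.2)) → ∃ h ∈ H, ∀ x ∈ S, h x.1 = x.2

/-- The fixed space. -/
def Fx (t : V ≃ₗ[ZMod p] V) : Submodule (ZMod p) V :=
  LinearMap.ker ((t : V →ₗ[ZMod p] V) - LinearMap.id)

/-- The image of `t - 1`. -/
def Rt (t : V ≃ₗ[ZMod p] V) : Submodule (ZMod p) V :=
  LinearMap.range ((t : V →ₗ[ZMod p] V) - LinearMap.id)

@[simp] lemma mem_Fx {t : V ≃ₗ[ZMod p] V} {v : V} : v ∈ Fx t ↔ t v = v := by
  simp [Fx, sub_eq_zero]

lemma mem_Rt {t : V ≃ₗ[ZMod p] V} {u : V} : u ∈ Rt t ↔ ∃ y, t y - y = u := by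
  simp [Rt]

lemma sub_mem_Rt (t : V ≃ₗ[ZMod p] V) (y : V) : t y - y ∈ Rt t := mem_Rt.2 ⟨y, rfl⟩

lemma finrank_Rt_add_Fx [Finite V] (t : V ≃ₗ[ZMod p] V) :
    Module.finrank (ZMod p) (Rt t) + Module.finrank (ZMod p) (Fx t)
      = Module.finrank (ZMod p) V := by
  haveI : Module.Finite (ZMod p) V := Module.Finite.of_finite
  exact LinearMap.finrank_range_add_finrank_ker _

section Rel
variable {H : Subgroup (V ≃ₗ[ZMod p] V)}

lemma Rel.refl (a : V) : Rel H a a := ⟨1, H.one_mem, rfl⟩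
lemma Rel.symm {a b : V} (h : Rel H a b) : Rel H b a := by
  obtain ⟨g, hg, rfl⟩ := h
  exact ⟨g⁻¹, H.inv_mem hg, inv_app g a⟩
lemma Rel.trans {a b c : V} (h : Rel H a b) (h' : Rel H b c) : Rel H a c := by
  obtain ⟨g, hg, rfl⟩ := h
  obtain ⟨g', hg', rfl⟩ := h'
  exact ⟨g' * g, H.mul_mem hg' hg, rfl⟩
lemma Rel.neg {a b : V} (h : Rel H a b) : Rel H (-a) (-b) := by
  obtain ⟨g, hg, rfl⟩ := h
  exact ⟨g, hg, map_neg g a⟩
lemma Rel.of_mem {g : V ≃ₗ[ZMod p] V} (hg : g ∈ H) (a : V) : Rel H a (g a) := ⟨g, hg, rfl⟩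

lemma Rel.zero_left {b : V} (h : Rel H 0 b) : b = 0 := by
  obtain ⟨g, -, rfl⟩ := h
  exact map_zero g

end Rel

section Main
variable {H : Subgroup (V ≃ₗ[ZMod p] V)} (hB : BP H)
include hB

/-- L1: elements can be made to swap `v` and `x v`. -/
lemma exists_swap {x : V ≃ₗ[ZMod p] V} (hx : x ∈ H) (v : V) :
    ∃ g ∈ H, g v = x v ∧ g (x v) = v := by
  obtain ⟨m, hm, hm'⟩ := hB {(v, v), (v + x⁻¹ v, v + x v)} (by
      rintro y (rfl | rfl)
      · exact Rel.refl _
      · exact ⟨x, hx, by simp [add_comm]⟩) (by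
      rintro y (rfl | rfl) z (rfl | rfl)
      · simp [Rel.refl]
      · simp only [sub_add_cancel_left]
        exact Rel.neg ⟨x * x, H.mul_mem hx hx, by simp⟩
      · simp only [add_sub_cancel_left]
        exact ⟨x * x, H.mul_mem hx hx, by simp⟩
      · simp [Rel.refl])
  have h1 : m v = v := hm' (v, v) (by simp)
  have h2 : m (v + x⁻¹ v) = v + x v := hm' (v + x⁻¹ v, v + x v) (by simp)
  rw [map_add, h1, add_right_inj] at h2
  refine ⟨x * m⁻¹, H.mul_mem hx (H.inv_mem hm), ?_, ?_⟩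
  · have : m⁻¹ v = v := by
      conv_lhs => rw [← h1]
      simp
    simp [this]
  · have : m⁻¹ (x v) = x⁻¹ v := by
      rw [← h2]
      simp
    simp [this]

/-- L2: the "equidistance" map. -/
lemma exists_equid {y y' : V} (h : Rel H y y') :
    ∃ m ∈ H, m y = y' ∧ m y' = y ∧ ∀ w, m w = w ↔ Rel H (w - y) (w - y') := by
  obtain ⟨x, hx, rfl⟩ := h
  obtain ⟨g, hg, hg1, hg2⟩ := exists_swap hB hx y
  have hd : Rel H (y - x y) (x y - y) := ⟨g, hg, by simp [hg1, hg2]⟩
  obtain ⟨m, hm, hm'⟩ := hB ({(y, x y), (x y, y)} ∪ {q | q.1 = q.2 ∧ Rel H (q.1 - y) (q.1 - x y)}) (by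
      rintro q ((rfl | rfl) | ⟨hq, -⟩)
      · exact Rel.of_mem hx y
      · exact (Rel.of_mem hx y).symm
      · rw [← hq]; exact Rel.refl _) (by
      rintro q ((rfl | rfl) | ⟨hq, hq'⟩) q' ((rfl | rfl) | ⟨hr, hr'⟩)
      · simp [Rel.refl]
      · exact hd
      · simp only
        rw [← hr]
        have := hr'.neg
        simpa using this
      · exact hd.symm
      · simp [Rel.refl]
      · simp only
        rw [← hr]
        have := hr'.symm.neg
        simpa using this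
      · simp only
        rw [← hq]
        exact hq'
      · simp only
        rw [← hq]
        exact hq'.symm
      · rw [← hq, ← hr]
        exact Rel.refl _)
  refine ⟨m, hm, hm' (y, x y) (by simp), hm' (x y, y) (by simp), fun w => ⟨fun hw => ?_, fun hw => ?_⟩⟩
  · exact ⟨m, hm, by simp [hw, hm' (y, x y) (by simp)]⟩
  · exact hm' (w, w) (Or.inr ⟨rfl, hw⟩)

omit hB in
/-- The data of the map attached to a difference `u` and a point `y` with `y ~ y + u`. -/
structure IsM (H : Subgroup (V ≃ₗ[ZMod p] V)) (u y : V) (m : V ≃ₗ[ZMod p] V) : Prop where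
  mem : m ∈ H
  app : m y = y + u
  app' : m (y + u) = y
  fix : ∀ w, m w = w ↔ Rel H (w - y) (w - (y + u))

lemma exists_isM {u y : V} (h : Rel H y (y + u)) : ∃ m, IsM H u y m := by
  obtain ⟨m, h1, h2, h3, h4⟩ := exists_equid hB h
  exact ⟨m, h1, h2, h3, h4⟩

omit hB

lemma IsM.apply_of_rel {u y z : V} {m : V ≃ₗ[ZMod p] V} (hm : IsM H u y m)
    (hz : Rel H z (z + u)) : m z = z + u ∧ m (z + u) = z := by
  have hw : m (z + y + u) = z + y + u := by
    rw [hm.fix]
    have e1 : z + y + u - y = z + u := by abel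
    have e2 : z + y + u - (y + u) = z := by abel
    rw [e1, e2]
    exact hz.symm
  have e3 : z = (z + y + u) - (y + u) := by abel
  have e4 : z + u = (z + y + u) - y := by abel
  constructor
  · conv_lhs => rw [e3]
    rw [map_sub, hw, hm.app']
    exact e4.symm
  · conv_lhs => rw [e4]
    rw [map_sub, hw, hm.app]
    exact e3.symm

lemma IsM.apply_u {u y : V} {m : V ≃ₗ[ZMod p] V} (hm : IsM H u y m) : m u = -u := by
  have e : u = (y + u) - y := by abel
  conv_lhs => rw [e]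
  rw [map_sub, hm.app', hm.app]
  abel

lemma IsM.fix_of {u y z w : V} {m x : V ≃ₗ[ZMod p] V} (hm : IsM H u y m) (hx : x ∈ H)
    (hz : x z = z + u) (hw : x w = w) : m w = w := by
  have h1 : Rel H (w - z - u) (w - z - u + u) := by
    refine Rel.symm ⟨x, hx, ?_⟩
    rw [sub_add_cancel, map_sub, hw, hz]
    abel
  have h2 := (hm.apply_of_rel h1).1
  have h3 : m z = z + u := (hm.apply_of_rel ⟨x, hx, hz⟩).1
  have e : w = (w - z - u) + z + u := by abel
  conv_lhs => rw [e]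
  rw [map_add, map_add, h2, h3, hm.apply_u]
  abel

/-- `t` is a reflection of `H`: its fixed space is maximal among fixed spaces of nontrivial
elements. -/
structure IsRefl (H : Subgroup (V ≃ₗ[ZMod p] V)) (t : V ≃ₗ[ZMod p] V) : Prop where
  mem : t ∈ H
  ne_one : t ≠ 1
  max : ∀ g ∈ H, g ≠ 1 → (∀ v, t v = v → g v = v) → ∀ v, g v = v → t v = v

lemma exists_refl [Finite V] {g₀ : V ≃ₗ[ZMod p] V} (h₀ : g₀ ∈ H) (h₁ : g₀ ≠ 1) :
    ∃ t, IsRefl H t ∧ ∀ v, g₀ v = v → t v = v := by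
  classical
  haveI : Finite (V ≃ₗ[ZMod p] V) :=
    Finite.of_injective (fun f => (f : V → V)) DFunLike.coe_injective
  obtain ⟨t, ⟨ht, ht1, ht2⟩, hmax⟩ := Set.exists_max_image
    {g : V ≃ₗ[ZMod p] V | g ∈ H ∧ g ≠ 1 ∧ ∀ v, g₀ v = v → g v = v}
    (fun g => Set.ncard {v : V | g v = v}) (Set.toFinite _) ⟨g₀, h₀, h₁, fun _ h => h⟩
  refine ⟨t, ⟨ht, ht1, fun g hg hg1 hsub => ?_⟩, ht2⟩
  have h := hmax g ⟨hg, hg1, fun v hv => hsub v (ht2 v hv)⟩
  have : {v : V | t v = v} = {v : V | g v = v} :=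
    Set.eq_of_subset_of_ncard_le (fun v hv => hsub v hv) h (Set.toFinite _)
  intro v hv
  have hv' : v ∈ {v : V | g v = v} := hv
  rw [← this] at hv'
  exact hv'

section Refl
variable {t t' : V ≃ₗ[ZMod p] V}

lemma IsRefl.exists_moved (ht : IsRefl H t) : ∃ y, t y ≠ y := by
  by_contra h
  push Not at h
  exact ht.ne_one (gl_ext h)

include hB in
/-- A reflection is the map attached to each of its differences. -/
lemma IsRefl.isM (ht : IsRefl H t) {y : V} (hy : t y ≠ y) : IsM H (t y - y) y t := by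
  have h1 : Rel H y (y + (t y - y)) := ⟨t, ht.mem, by abel⟩
  obtain ⟨m, hm⟩ := exists_isM hB h1
  have hz : t y = y + (t y - y) := by abel
  have hm1 : m ≠ 1 := by
    rintro rfl
    have := hm.app
    rw [one_app] at this
    apply hy
    rw [hz, ← this]
  have hfix : ∀ v, t v = v → m v = v := fun v hv => hm.fix_of ht.mem hz hv
  have hfix' := ht.max m hm.mem hm1 hfix
  have hg : t⁻¹ * m = 1 := by
    by_contra hg
    have := ht.max (t⁻¹ * m) (H.mul_mem (H.inv_mem ht.mem) hm.mem) hg (fun v hv => by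
      have h2 : t⁻¹ v = v := by
        conv_lhs => rw [← hv]
        simp
      simp [hfix v hv, h2]) y (by
      simp only [mul_app]
      rw [hm.app, ← hz]
      simp)
    exact hy this
  have : m = t := by
    rw [inv_mul_eq_one] at hg
    exact hg.symm
  rwa [this] at hm

include hB in
lemma IsRefl.sq (ht : IsRefl H t) : t * t = 1 := by
  by_contra hg
  obtain ⟨y, hy⟩ := ht.exists_moved
  have hm := ht.isM hB hy
  have := ht.max (t * t) (H.mul_mem ht.mem ht.mem) hg (fun v hv => by simp [hv]) y (by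
    have h := hm.app'
    rw [add_sub_cancel] at h
    exact h)
  exact hy this

include hB in
lemma IsRefl.invol (ht : IsRefl H t) (v : V) : t (t v) = v := by
  have := congrArg (fun f : V ≃ₗ[ZMod p] V => f v) (ht.sq hB)
  simpa using this

include hB in
lemma IsRefl.inv_eq (ht : IsRefl H t) : t⁻¹ = t :=
  inv_eq_of_mul_eq_one_left (ht.sq hB)

include hB in
/-- On the root space, `t` acts by `-1`. -/
lemma IsRefl.apply_root (ht : IsRefl H t) {u : V} (hu : u ∈ Rt t) : t u = -u := by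
  obtain ⟨y, rfl⟩ := mem_Rt.1 hu
  rw [map_sub, ht.invol hB]
  abel

include hB in
/-- R4: if `g z - z` is a nonzero root of `t`, then `t z = g z` and `Fix g ≤ Fix t`. -/
lemma IsRefl.of_eq (ht : IsRefl H t) {g : V ≃ₗ[ZMod p] V} (hg : g ∈ H) {z u : V}
    (hu : u ∈ Rt t) (hu0 : u ≠ 0) (hz : g z = z + u) :
    t z = g z ∧ ∀ w, g w = w → t w = w := by
  obtain ⟨y, rfl⟩ := mem_Rt.1 hu
  have hy : t y ≠ y := fun h => hu0 (by rw [h, sub_self])
  have hm := ht.isM hB hy
  have h1 := (hm.apply_of_rel (z := z) ⟨g, hg, hz⟩).1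
  exact ⟨by rw [h1, hz], fun w hw => hm.fix_of hg hz hw⟩

include hB in
/-- Root uniqueness. -/
lemma root_uniq (ht : IsRefl H t) (ht' : IsRefl H t') {u : V} (hu0 : u ≠ 0)
    (hu : u ∈ Rt t) (hu' : u ∈ Rt t') : t = t' := by
  obtain ⟨y, rfl⟩ := mem_Rt.1 hu'
  have h := ht.of_eq hB ht'.mem hu hu0 (z := y) (by abel)
  have hmoved : t' y ≠ y := fun h => hu0 (by rw [h, sub_self])
  have hg : t'⁻¹ * t = 1 := by
    by_contra hg
    have := ht'.max (t'⁻¹ * t) (H.mul_mem (H.inv_mem ht'.mem) ht.mem) hg (fun v hv => by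
      have h2 : t'⁻¹ v = v := by
        conv_lhs => rw [← hv]
        simp
      have h3 : t v = v := h.2 v hv
      simp only [mul_app, h3, h2]) y (by
      simp only [mul_app]
      rw [h.1]
      simp)
    exact hmoved this
  rw [inv_mul_eq_one] at hg
  exact hg.symm

include hB in
/-- G1. -/
lemma eq_of_range_le (ht : IsRefl H t) {g : V ≃ₗ[ZMod p] V} (hg : g ∈ H) (hg1 : g ≠ 1)
    (h : ∀ z, g z - z ∈ Rt t) : g = t := by
  have hne : ∃ z, g z ≠ z := by
    by_contra hh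
    push Not at hh
    exact hg1 (gl_ext hh)
  obtain ⟨z₀, hz₀⟩ := hne
  have hfix := (ht.of_eq hB hg (h z₀) (sub_ne_zero.2 hz₀) (z := z₀) (by abel)).2
  refine gl_ext fun z => ?_
  by_cases hz : g z = z
  · rw [hz, hfix z hz]
  · exact ((ht.of_eq hB hg (h z) (sub_ne_zero.2 hz) (z := z) (by abel)).1).symm

include hB in
lemma IsRefl.conj (ht : IsRefl H t) {g : V ≃ₗ[ZMod p] V} (hg : g ∈ H) : IsRefl H (g * t * g⁻¹) := by
  refine ⟨H.mul_mem (H.mul_mem hg ht.mem) (H.inv_mem hg), ?_, ?_⟩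
  · intro h
    apply ht.ne_one
    have : t = g⁻¹ * (g * t * g⁻¹) * g := by group
    rw [this, h]
    group
  · intro r hr hr1 hfix v hv
    have hr' : g⁻¹ * r * g ∈ H := H.mul_mem (H.mul_mem (H.inv_mem hg) hr) hg
    have hr1' : g⁻¹ * r * g ≠ 1 := by
      intro h
      apply hr1
      have : r = g * (g⁻¹ * r * g) * g⁻¹ := by group
      rw [this, h]
      group
    have := ht.max _ hr' hr1' (fun w hw => by
      have := hfix (g w) (by simp [hw])
      simp [this]) (g⁻¹ v) (by simp [hv])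
    simp only [mul_app, this, app_inv]

lemma mem_Rt_conj {g : V ≃ₗ[ZMod p] V} {u : V} (hu : u ∈ Rt t) : g u ∈ Rt (g * t * g⁻¹) := by
  obtain ⟨y, rfl⟩ := mem_Rt.1 hu
  exact mem_Rt.2 ⟨g y, by simp⟩

lemma mem_Fx_conj {g : V ≃ₗ[ZMod p] V} {u : V} (hu : u ∈ Fx t) : g u ∈ Fx (g * t * g⁻¹) := by
  rw [mem_Fx] at hu ⊢
  simp [hu]

lemma finrank_Rt_conj [Finite V] (g : V ≃ₗ[ZMod p] V) :
    Module.finrank (ZMod p) (Rt (g * t * g⁻¹)) = Module.finrank (ZMod p) (Rt t) := by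
  have : Rt (g * t * g⁻¹) = (Rt t).map (g : V →ₗ[ZMod p] V) := by
    ext u
    simp only [Submodule.mem_map]
    constructor
    · intro hu
      obtain ⟨y, rfl⟩ := mem_Rt.1 hu
      exact ⟨t (g⁻¹ y) - g⁻¹ y, sub_mem_Rt _ _, by simp⟩
    · rintro ⟨w, hw, rfl⟩
      exact mem_Rt_conj hw
  rw [this]
  exact LinearEquiv.finrank_map_eq g _

lemma finrank_Fx_conj [Finite V] (g : V ≃ₗ[ZMod p] V) :
    Module.finrank (ZMod p) (Fx (g * t * g⁻¹)) = Module.finrank (ZMod p) (Fx t) := by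
  have h1 := finrank_Rt_add_Fx t
  have h2 := finrank_Rt_add_Fx (g * t * g⁻¹)
  have h3 := finrank_Rt_conj (t := t) g
  omega

include hB in
/-- J4. -/
lemma comm_of_fix_root {r g : V ≃ₗ[ZMod p] V} (hr : IsRefl H r) {b : V} (hb : b ∈ Rt r)
    (hb0 : b ≠ 0) (hg : g ∈ H) (hgb : g b = b) : g * r = r * g := by
  have h1 := hr.conj hB hg
  have h2 : b ∈ Rt (g * r * g⁻¹) := by
    have := mem_Rt_conj (g := g) hb
    rwa [hgb] at this
  have h3 := root_uniq hB h1 hr hb0 h2 hb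
  rw [mul_inv_eq_iff_eq_mul] at h3
  exact h3

include hB in
/-- J5. -/
lemma Rt_le_Fx_of_comm (ht : IsRefl H t) (ht' : IsRefl H t') (hne : t ≠ t')
    (hc : t * t' = t' * t) : Rt t' ≤ Fx t := by
  intro u hu
  obtain ⟨y, rfl⟩ := mem_Rt.1 hu
  rw [mem_Fx]
  by_contra h
  have h0 : t (t' y - y) - (t' y - y) ≠ 0 := sub_ne_zero.2 h
  refine hne (root_uniq hB ht ht' h0 (sub_mem_Rt _ _) (mem_Rt.2 ⟨t y - y, ?_⟩))
  have hc' : t' (t y) = t (t' y) := by
    have := congrArg (fun f : V ≃ₗ[ZMod p] V => f y) hc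
    simpa using this.symm
  simp only [map_sub, hc']
  abel

include hB in
/-- Fixed points of a product of two distinct reflections. -/
lemma fix_mul (ht : IsRefl H t) (ht' : IsRefl H t') (hne : t ≠ t') {z : V}
    (hz : (t * t') z = z) : t z = z ∧ t' z = z := by
  have h1 : t' z = t z := by
    have h := congrArg t hz
    rw [mul_app, ht.invol hB] at h
    exact h
  have h2 : t z - z = 0 := by
    by_contra h0
    refine hne (root_uniq hB ht ht' h0 (sub_mem_Rt _ _) (mem_Rt.2 ⟨z, ?_⟩))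
    rw [h1]
  have h3 : t z = z := sub_eq_zero.1 h2
  exact ⟨h3, h1.trans h3⟩

include hB in
lemma Fx_mul (ht : IsRefl H t) (ht' : IsRefl H t') (hne : t ≠ t') :
    Fx (t * t') = Fx t ⊓ Fx t' := by
  ext z
  simp only [Submodule.mem_inf, mem_Fx]
  exact ⟨fun h => fix_mul hB ht ht' hne h, fun h => by simp [h.1, h.2]⟩

include hB in
/-- L8: elements fixing prescribed points. -/
lemma exists_fix_ne_one [Finite V] {x : V ≃ₗ[ZMod p] V} (hx : x ∈ H) (hx2 : x * x ≠ 1) (v : V) :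
    ∃ g ∈ H, g ≠ 1 ∧ (∀ a, x a = a → g a = a) ∧ g v = v := by
  by_cases hv : (x * x) v = v
  · exact ⟨x * x, H.mul_mem hx hx, hx2, fun a ha => by simp [ha], hv⟩
  obtain ⟨m, hm, hm'⟩ := hB ({(v, v), (v + x⁻¹ v, v + x v)} ∪ {q | q.1 = q.2 ∧ x q.1 = q.1}) (by
      rintro q ((rfl | rfl) | ⟨hq, -⟩)
      · exact Rel.refl _
      · exact ⟨x, hx, by simp [add_comm]⟩
      · rw [← hq]; exact Rel.refl _) (by
      have key1 : ∀ a, x a = a → Rel H (a - (v + x⁻¹ v)) (a - (v + x v)) := fun a ha =>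
        ⟨x, hx, by simp [ha]; abel⟩
      rintro q ((rfl | rfl) | ⟨hq, hq'⟩) q' ((rfl | rfl) | ⟨hr, hr'⟩)
      · simp [Rel.refl]
      · simp only [sub_add_cancel_left]
        exact Rel.neg ⟨x * x, H.mul_mem hx hx, by simp⟩
      · simp only
        rw [← hr]
        exact Rel.refl _
      · simp only [add_sub_cancel_left]
        exact ⟨x * x, H.mul_mem hx hx, by simp⟩
      · simp [Rel.refl]
      · simp only
        rw [← hr]
        have := (key1 _ hr').neg
        simpa using this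
      · simp only
        rw [← hq]
        exact Rel.refl _
      · simp only
        rw [← hq]
        exact key1 _ hq'
      · rw [← hq, ← hr]
        exact Rel.refl _)
  have h1 : m v = v := hm' (v, v) (by simp)
  have h2 : m (v + x⁻¹ v) = v + x v := hm' (v + x⁻¹ v, v + x v) (by simp)
  rw [map_add, h1, add_right_inj] at h2
  refine ⟨m, hm, ?_, fun a ha => hm' (a, a) (Or.inr ⟨rfl, ha⟩), h1⟩
  rintro rfl
  apply hv
  rw [one_app] at h2
  simp only [mul_app]
  rw [← h2]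
  simp

include hB in
/-- Cover: if `x * x ≠ 1`, each `v` lies in the fixed space of a reflection containing `Fix x`. -/
lemma exists_refl_fix [Finite V] {x : V ≃ₗ[ZMod p] V} (hx : x ∈ H) (hx2 : x * x ≠ 1) (v : V) :
    ∃ s, IsRefl H s ∧ Fx x ≤ Fx s ∧ s v = v := by
  obtain ⟨g, hg, hg1, hg2, hg3⟩ := exists_fix_ne_one hB hx hx2 v
  obtain ⟨s, hs, hs'⟩ := exists_refl hg hg1
  exact ⟨s, hs, fun a ha => by
    rw [mem_Fx] at ha ⊢
    exact hs' a (hg2 a ha), hs' v hg3⟩

end Refl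

end Main

end Cfsg.Agent.AffBin
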