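import Cfsg.Agent.Lib.Classical.AffBin.Pair

/-! Binary primitive affine groups: the characteristic two track. -/

set_option autoImplicit false

namespace Cfsg.Agent.AffBin

variable {p : ℕ} [Fact p.Prime] {V : Type*} [AddCommGroup V] [Module (ZMod p) V]
variable {H : Subgroup (V ≃ₗ[ZMod p] V)}

/-- In a group, an element inverted by an involution. -/
lemma conj_pow_aux {G : Type*} [Group G] {g y : G} (hg : g * g = 1) (h : g * y * g = y⁻¹) (n : ℕ) :
    g * y ^ n * g = (y ^ n)⁻¹ := by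
  induction n with
  | zero => simpa using hg
  | succ n ih =>
    calc g * y ^ (n + 1) * g = (g * y ^ n * g) * (g * y * g) := by
          rw [pow_succ]
          have : g * (y ^ n * y) * g = g * y ^ n * (g * g) * y * g := by
            rw [hg]; group
          rw [this]
          group
      _ = (y ^ (n + 1))⁻¹ := by
          rw [ih, h, pow_succ]
          group

lemma conj_pow {G : Type*} [Group G] {g y : G} (hg : g * g = 1) (h : g * y * g = y⁻¹) (n : ℕ) :
    y ^ n * g * (y ^ n)⁻¹ = y ^ (2 * n) * g := by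
  have h1 := conj_pow_aux hg h n
  have hinv : g⁻¹ = g := inv_eq_of_mul_eq_one_left hg
  have h2 : g * (y ^ n)⁻¹ = y ^ n * g := by
    rw [← h1]
    calc g * (g * y ^ n * g) = (g * g) * y ^ n * g := by group
      _ = _ := by rw [hg]; group
  rw [mul_assoc, h2, two_mul, pow_add]
  group

section Even
variable [Finite V] (hB : BP H) (hchar : ∀ v : V, v + v = 0) {t t' : V ≃ₗ[ZMod p] V}

include hB hchar

lemma IsRefl.Rt_le_Fx (ht : IsRefl H t) : Rt t ≤ Fx t := by
  intro u hu
  rw [mem_Fx, ht.apply_root hB hu]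
  have := hchar u
  grind

lemma IsRefl.app_of_Rt (ht : IsRefl H t) {u : V} (hu : u ∈ Rt t) : t u = u :=
  mem_Fx.1 (ht.Rt_le_Fx hB hchar hu)

omit hB hchar in
/-- Fixed points and odd order. -/
lemma cop_of_odd (hchar : ∀ v : V, v + v = 0) {x : V ≃ₗ[ZMod p] V} {m : ℕ} (hm : Odd m)
    (hx : x ^ m = 1) : Fx x ⊓ Rt x = ⊥ := by
  rw [Submodule.eq_bot_iff]
  rintro u ⟨h1, h2⟩
  obtain ⟨v, rfl⟩ := mem_Rt.1 h2
  have h1' := mem_Fx.1 h1
  set u := x v - v with hu
  have hxv : x v = v + u := by rw [hu]; abel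
  have hpow : ∀ n : ℕ, (x ^ n) v = v + n • u := by
    intro n
    induction n with
    | zero => simp
    | succ n ih =>
      rw [pow_succ', mul_app, ih, map_add, hxv, map_nsmul, h1', succ_nsmul]
      abel
  obtain ⟨j, rfl⟩ := hm
  have h3 := hpow (2 * j + 1)
  rw [hx, one_app] at h3
  have h4 : (2 * j + 1) • u = u := by
    rw [succ_nsmul, mul_nsmul, two_nsmul, hchar u, nsmul_zero, zero_add]
  rw [h4] at h3
  have : u = 0 := by grind
  exact this

/-- E2. -/
lemma comm_of_Fx_eq (ht : IsRefl H t) (ht' : IsRefl H t') (h : Fx t ≤ Fx t') : t * t' = t' * t := by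
  by_cases hg : t * t' = 1
  · have : t' * t = 1 := by
      rw [mul_eq_one_iff_eq_inv] at hg
      rw [hg, mul_inv_cancel]
    rw [hg, this]
  · have hr := ht.of_fix hB (H.mul_mem ht.mem ht'.mem) hg (fun v hv => by
      have h2 : t' v = v := mem_Fx.1 (h (mem_Fx.2 hv))
      simp [h2, hv])
    have h1 := hr.sq hB
    have h2 := ht.sq hB
    have h3 := ht'.sq hB
    calc t * t' = t * t' * (t * t' * (t' * t)) := by
            have : t * t' * (t' * t) = 1 := by
              rw [mul_assoc, ← mul_assoc t' t', h3, one_mul, h2]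
            rw [this, mul_one]
      _ = (t * t' * (t * t')) * (t' * t) := by group
      _ = t' * t := by rw [h1, one_mul]

/-- E3: the swap lemma. -/
lemma swap_le (ht : IsRefl H t) (ht' : IsRefl H t') (hne : t ≠ t') (hc : t * t' = t' * t)
    {g : V ≃ₗ[ZMod p] V} (hg : g ∈ H) (hconj : t' = g * t * g⁻¹) : Fx t' ≤ Fx t := by
  intro y₀ hy₀
  rw [mem_Fx] at hy₀ ⊢
  by_contra hmoved
  have hR1 := Rt_le_Fx_of_comm hB ht ht' hne hc
  have hR2 := Rt_le_Fx_of_comm hB ht' ht hne.symm hc.symm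
  set y := t y₀ - y₀ with hy
  have hy0 : y ≠ 0 := sub_ne_zero.2 hmoved
  have hyR : y ∈ Rt t := sub_mem_Rt _ _
  have hy'R : g y ∈ Rt t' := by
    rw [hconj]
    exact mem_Rt_conj hyR
  obtain ⟨m, hm, hm1, hm2, hm3⟩ := exists_equid hB (Rel.of_mem hg y)
  have hm1R : m y ∈ Rt (m * t * m⁻¹) := mem_Rt_conj hyR
  have hm2R : m (g y) ∈ Rt (m * t' * m⁻¹) := mem_Rt_conj hy'R
  rw [hm1] at hm1R
  rw [hm2] at hm2R
  have hy'0 : g y ≠ 0 := (map_ne_zero_iff g g.injective).2 hy0
  have e1 : m * t * m⁻¹ = t' := root_uniq hB (ht.conj hB hm) ht' hy'0 hm1R hy'R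
  have e2 : m * t' * m⁻¹ = t := root_uniq hB (ht'.conj hB hm) ht hy0 hm2R hyR
  have e1' : ∀ v, m (t v) = t' (m v) := by
    intro v
    rw [← e1]
    simp
  have e2' : ∀ v, m (t' v) = t (m v) := by
    intro v
    rw [← e2]
    simp
  set y' := g y with hy'
  set y₁ := m y₀ with hy₁
  have a1 : t y = y := ht.app_of_Rt hB hchar hyR
  have a2 : t' y = y := mem_Fx.1 (hR2 hyR)
  have a3 : t' y' = y' := ht'.app_of_Rt hB hchar hy'R
  have a4 : t y' = y' := mem_Fx.1 (hR1 hy'R)
  have a5 : t y₁ = y₁ := by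
    rw [hy₁, ← e2', hy₀]
  have a6 : t' y₁ = y₁ + y' := by
    rw [hy₁, ← e1']
    have : t y₀ = y₀ + y := by rw [hy]; abel
    rw [this, map_add, hm1]
  have a7 : t y₀ = y₀ + y := by rw [hy]; abel
  have fix0 : m (y₀ + y₁) = y₀ + y₁ := by
    rw [hm3]
    refine ⟨t * t', H.mul_mem ht.mem ht'.mem, ?_⟩
    simp only [mul_app, map_sub, map_add, hy₀, a6, a2, a7, a5, a4, a1]
    have := hchar y
    have := hchar y'
    grind
  have fix1 : m (y₀ + y₁ + y) = y₀ + y₁ + y := by
    rw [hm3]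
    refine ⟨t * t', H.mul_mem ht.mem ht'.mem, ?_⟩
    simp only [mul_app, map_sub, map_add, hy₀, a6, a2, a7, a5, a4, a1]
    have := hchar y
    have := hchar y'
    grind
  have hfin : y' = y := by
    rw [map_add, fix0, hm1] at fix1
    grind
  rw [hfin] at hy'R
  exact hne (root_uniq hB ht ht' hy0 hyR hy'R)

lemma swap_eq (ht : IsRefl H t) (ht' : IsRefl H t') (hne : t ≠ t') (hc : t * t' = t' * t)
    {g : V ≃ₗ[ZMod p] V} (hg : g ∈ H) (hconj : t' = g * t * g⁻¹) : Fx t' = Fx t := by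
  refine eq_of_le_finrank (swap_le hB hchar ht ht' hne hc hg hconj) ?_
  rw [hconj]
  exact (finrank_Fx_conj g).ge

lemma inverts_left (ht : IsRefl H t) (ht' : IsRefl H t') : t * (t * t') * t = (t * t')⁻¹ := by
  have h1 := ht.sq hB
  have h2 := ht'.inv_eq hB
  have h3 := ht.inv_eq hB
  rw [mul_inv_rev, h2, h3, ← mul_assoc, h1, one_mul]

lemma inverts_right (ht : IsRefl H t) (ht' : IsRefl H t') : t' * (t * t') * t' = (t * t')⁻¹ := by
  have h1 := ht'.sq hB
  have h2 := ht'.inv_eq hB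
  have h3 := ht.inv_eq hB
  rw [mul_inv_rev, h2, h3, mul_assoc, mul_assoc, h1, mul_one]

/-- The `4 ∣ m` case. -/
lemma no_order_four (ht : IsRefl H t) (ht' : IsRefl H t') {c : V ≃ₗ[ZMod p] V} (hcH : c ∈ H)
    (h1 : t * c * t = c⁻¹) (h2 : t' * c * t' = c⁻¹) (hz : c * c ≠ 1)
    (hz2 : (c * c) * (c * c) = 1) : t * t' = t' * t := by
  have key : ∀ {r : V ≃ₗ[ZMod p] V}, IsRefl H r → r * c * r = c⁻¹ → Fx (c * c) = Fx r := by
    intro r hr hrc
    have hrr := hr.sq hB
    have hzinv : (c * c)⁻¹ = c * c := inv_eq_of_mul_eq_one_left hz2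
    have hzr : (c * c) * r = r * (c * c) := by
      have h3 := conj_pow_aux hrr hrc 2
      rw [pow_two, hzinv] at h3
      have : r * (c * c) * r * r = (c * c) * r := by rw [h3]
      rw [← this, mul_assoc (r * (c * c)), hrr, mul_one]
    have hconj : c * r * c⁻¹ = (c * c) * r := by
      have h3 := conj_pow hrr hrc 1
      simpa [pow_two, two_mul] using h3
    have hrefl : IsRefl H ((c * c) * r) := by
      rw [← hconj]
      exact hr.conj hB hcH
    have hne : r ≠ (c * c) * r := by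
      intro h
      apply hz
      exact (mul_eq_right.1 h.symm)
    have hcomm : r * ((c * c) * r) = ((c * c) * r) * r := by
      rw [← mul_assoc, ← hzr]
    have hE := swap_eq hB hchar hr hrefl hne hcomm hcH hconj.symm
    have hsub : ∀ v, r v = v → (c * c) v = v := by
      intro v hv
      have h5 : v ∈ Fx ((c * c) * r) := by rw [hE]; exact mem_Fx.2 hv
      rw [mem_Fx] at h5
      rw [mul_app, hv] at h5
      exact h5
    apply le_antisymm
    · intro v hv
      rw [mem_Fx] at hv ⊢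
      exact hr.max _ (H.mul_mem hcH hcH) hz hsub v hv
    · intro v hv
      rw [mem_Fx] at hv ⊢
      exact hsub v hv
  have e1 := key ht h1
  have e2 := key ht' h2
  exact comm_of_Fx_eq hB hchar ht ht' (by rw [← e1, e2])

/-- `F ⊓ E = R` for an admissible pair. -/
lemma Pair.inf_root (P : Pair H t t') :
    Fx t ⊓ (Rt t ⊔ Rt t') = Rt t := by
  symm
  refine eq_of_le_finrank (le_inf (P.ht.Rt_le_Fx hB hchar) le_sup_left) ?_
  have h1 := P.dim_inf hB (F := Fx t) inf_le_left
  have h2 := finrank_Rt_add_Fx t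
  omega

/-- Non-commuting reflections have a product of odd order. -/
lemma odd_order (ht : IsRefl H t) (ht' : IsRefl H t') (hnc : t * t' ≠ t' * t) :
    ∃ m, Odd m ∧ (t * t') ^ m = 1 := by
  classical
  haveI : Finite (V ≃ₗ[ZMod p] V) :=
    Finite.of_injective (fun f => (f : V → V)) DFunLike.coe_injective
  set y := t * t' with hy
  have hyH : y ∈ H := H.mul_mem ht.mem ht'.mem
  have hinv1 : t * y * t = y⁻¹ := inverts_left hB hchar ht ht'
  have hinv2 : t' * y * t' = y⁻¹ := inverts_right hB hchar ht ht'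
  have hm0 : 0 < orderOf y := orderOf_pos y
  by_contra hodd
  have hodd' : ¬ Odd (orderOf y) := fun h => hodd ⟨_, h, pow_orderOf_eq_one y⟩
  rw [Nat.not_odd_iff_even] at hodd'
  obtain ⟨k, hk⟩ := hodd'
  have hk2 : orderOf y = 2 * k := by omega
  have hk0 : 0 < k := by omega
  have hyk : y ^ k ≠ 1 := pow_ne_one_of_lt_orderOf (by omega) (by omega)
  have hyk2 : y ^ k * y ^ k = 1 := by
    rw [← pow_add, ← hk, pow_orderOf_eq_one]
  have hk1 : k ≠ 1 := by
    rintro rfl
    apply mul_sq_ne_one hB ht ht' hnc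
    simpa using hyk2
  rcases Nat.even_or_odd k with ⟨l, hl⟩ | ⟨l, hl⟩
  · -- `4 ∣ m`
    have hc : y ^ l * y ^ l = y ^ k := by rw [← pow_add, hl]
    apply hnc
    refine no_order_four hB hchar ht ht' (H.pow_mem hyH l)
      (conj_pow_aux (ht.sq hB) hinv1 l) (conj_pow_aux (ht'.sq hB) hinv2 l) ?_ ?_
    · rw [hc]; exact hyk
    · rw [hc]; exact hyk2
  · -- `m = 2 k`, `k` odd
    have hl0 : 0 < l := by omega
    exfalso
    set z := y ^ k with hz
    have hzH : z ∈ H := H.pow_mem hyH k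
    have hzy : z * y = y * z := by rw [hz, ← pow_succ, pow_succ']
    have hzinv : z⁻¹ = z := inv_eq_of_mul_eq_one_left hyk2
    have hzt : z * t = t * z := by
      have h3 := conj_pow_aux (ht.sq hB) hinv1 k
      rw [← hz, hzinv] at h3
      have : t * z * t * t = z * t := by rw [h3]
      rw [← this, mul_assoc (t * z), ht.sq hB, mul_one]
    -- the reflections
    have hrg : IsRefl H (y * t) := by
      have : y * t = t * t' * t⁻¹ := by rw [ht.inv_eq hB, hy]
      rw [this]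
      exact ht'.conj hB ht.mem
    have hty : t * y = y⁻¹ * t := by
      rw [← hinv1]
      calc t * y = t * y * (t * t) := by rw [ht.sq hB, mul_one]
        _ = _ := by group
    have hginv : (y * t) * y * (y * t) = y⁻¹ := by
      calc (y * t) * y * (y * t) = y * (t * y) * y * t := by group
        _ = y * (y⁻¹ * t) * y * t := by rw [hty]
        _ = t * y * t := by group
        _ = y⁻¹ := hinv1
    have hzt₀ : z * t = y ^ l * (y * t) * (y ^ l)⁻¹ := by
      rw [conj_pow ((hrg).sq hB) hginv l, ← mul_assoc, ← pow_succ, hz, hl]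
    have ht₃ : IsRefl H (z * t) := by
      rw [hzt₀]
      exact hrg.conj hB (H.pow_mem hyH l)
    have ht₂ : IsRefl H (y * t * y⁻¹) := ht.conj hB hyH
    have ht₄ : IsRefl H (y * (z * t) * y⁻¹) := ht₃.conj hB hyH
    set x := t * (y * t * y⁻¹) with hx
    have hx1 : x = (y ^ 2)⁻¹ := by
      rw [hx]
      calc t * (y * t * y⁻¹) = (t * y * t) * y⁻¹ := by group
        _ = y⁻¹ * y⁻¹ := by rw [hinv1]
        _ = _ := by group
    have hzz : z * z = 1 := hyk2
    have hx3 : (z * t) * (y * (z * t) * y⁻¹) = x := by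
      rw [hx]
      calc (z * t) * (y * (z * t) * y⁻¹) = z * (t * (y * z) * t) * y⁻¹ := by group
        _ = z * (t * (z * y) * t) * y⁻¹ := by rw [hzy]
        _ = z * ((t * z) * y * t) * y⁻¹ := by group
        _ = z * ((z * t) * y * t) * y⁻¹ := by rw [hzt]
        _ = (z * z) * (t * y * t) * y⁻¹ := by group
        _ = t * (y * t * y⁻¹) := by rw [hzz]; group
    have hxk : x ^ k = 1 := by
      rw [hx1, inv_pow, ← pow_mul, ← hk2, pow_orderOf_eq_one, inv_one]
    have hxx : x * x ≠ 1 := by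
      intro h
      have h4 : y ^ 4 = 1 := by
        rw [hx1] at h
        have h5 : (y ^ 2)⁻¹ * (y ^ 2)⁻¹ = (y ^ 4)⁻¹ := by
          rw [← mul_inv_rev, ← pow_add]
        rw [h5, inv_eq_one] at h
        exact h
      have := Nat.le_of_dvd (by norm_num) (orderOf_dvd_of_pow_eq_one h4)
      omega
    have hcm : ∀ {r r' : V ≃ₗ[ZMod p] V}, IsRefl H r → IsRefl H r' → r * r' = x → r * r' ≠ r' * r := by
      intro r r' hr hr' hrr' hcomm
      apply hxx
      calc x * x = (r * r') * (r' * r) := by rw [← hcomm, hrr']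
        _ = r * (r' * r') * r := by group
        _ = 1 := by rw [hr'.sq hB, mul_one, hr.sq hB]
    have hxodd : Odd k := ⟨l, hl⟩
    have hcop := cop_of_odd hchar hxodd hxk
    have P₁ : Pair H t (y * t * y⁻¹) := by
      exact ⟨ht, ht₂, hcm ht ht₂ hx.symm, hcop⟩
    have P₃ : Pair H (z * t) (y * (z * t) * y⁻¹) := by
      exact ⟨ht₃, ht₄, hcm ht₃ ht₄ hx3, by rw [hx3]; exact hcop⟩
    have hE₁ : Rt x = Rt t ⊔ Rt (y * t * y⁻¹) := P₁.Rt_mul hB
    have hE₃ : Rt x = Rt (z * t) ⊔ Rt (y * (z * t) * y⁻¹) := by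
      rw [← hx3]
      exact P₃.Rt_mul hB
    have hI₁ := P₁.inf_root hB hchar
    have hI₃ := P₃.inf_root hB hchar
    rw [← hE₁] at hI₁
    rw [← hE₃] at hI₃
    obtain ⟨e₂, he₂, he₂0⟩ := Pair.exists_ne_zero_Rt hB ht
    have he₂E : e₂ ∈ Rt x := by rw [hE₁]; exact Submodule.mem_sup_left he₂
    have he₂F : t e₂ = e₂ := ht.app_of_Rt hB hchar he₂
    have hzx : z * x = x * z := by
      have hc : Commute z y := hzy
      rw [hx1]
      exact ((hc.pow_right 2).inv_right)
    have hzpres : ∀ u ∈ Rt x, z u ∈ Rt x := by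
      intro u hu
      obtain ⟨v, rfl⟩ := mem_Rt.1 hu
      have : z (x v - v) = x (z v) - z v := by
        have h6 := congrArg (fun f : V ≃ₗ[ZMod p] V => f v) hzx
        simp only [mul_app] at h6
        rw [map_sub, h6]
      rw [this]
      exact sub_mem_Rt _ _
    have hzz' : ∀ v, z (z v) = v := by
      intro v
      have h6 := congrArg (fun f : V ≃ₗ[ZMod p] V => f v) hzz
      simpa using h6
    have hzt' : ∀ v, t (z v) = z (t v) := by
      intro v
      have h6 := congrArg (fun f : V ≃ₗ[ZMod p] V => f v) hzt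
      simpa using h6.symm
    obtain ⟨e, heE, he0, hzF, htF⟩ : ∃ e ∈ Rt x, e ≠ 0 ∧ z e = e ∧ t e = e := by
      by_cases h6 : z e₂ = e₂
      · exact ⟨e₂, he₂E, he₂0, h6, he₂F⟩
      · refine ⟨z e₂ - e₂, Submodule.sub_mem _ (hzpres _ he₂E) he₂E, sub_ne_zero.2 h6, ?_, ?_⟩
        · rw [map_sub, hzz']
          have := hchar (z e₂ - e₂)
          grind
        · rw [map_sub, hzt', he₂F]
    have h₁ : e ∈ Rt t := by
      rw [← hI₁]
      exact ⟨mem_Fx.2 htF, heE⟩
    have h₃ : e ∈ Rt (z * t) := by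
      rw [← hI₃]
      exact ⟨mem_Fx.2 (by simp [htF, hzF]), heE⟩
    have := root_uniq hB ht ht₃ he0 h₁ h₃
    exact hyk (mul_eq_right.1 this.symm)

/-- Non-commuting reflections are conjugate. -/
lemma conj_of_noncomm (ht : IsRefl H t) (ht' : IsRefl H t') (hnc : t * t' ≠ t' * t) :
    ∃ g ∈ H, t' = g * t * g⁻¹ := by
  obtain ⟨m, ⟨l, rfl⟩, hm⟩ := odd_order hB hchar ht ht' hnc
  refine ⟨(t * t') ^ l, H.pow_mem (H.mul_mem ht.mem ht'.mem) l, ?_⟩
  rw [conj_pow (ht.sq hB) (inverts_left hB hchar ht ht') l]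
  have h1 : (t * t') ^ (2 * l) = (t * t')⁻¹ := by
    rw [eq_inv_iff_mul_eq_one, ← pow_succ]
    exact hm
  rw [h1, mul_inv_rev, ht.inv_eq hB, ht'.inv_eq hB, mul_assoc, ht.sq hB, mul_one]

/-- All reflections are conjugate. -/
lemma all_conj (hirr : Irr H) (ht : IsRefl H t) (hr : IsRefl H t') : ∃ g ∈ H, t' = g * t * g⁻¹ := by
  by_contra hnot
  let W : Submodule (ZMod p) V :=
    ⨅ (r : {r // IsRefl H r ∧ ¬ ∃ g ∈ H, r = g * t * g⁻¹}), Fx r.1
  have hW : ∀ u, u ∈ W ↔ ∀ r, IsRefl H r → (¬ ∃ g ∈ H, r = g * t * g⁻¹) → r u = u := by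
    intro u
    simp only [W, Submodule.mem_iInf, mem_Fx, Subtype.forall]
    exact ⟨fun h r h1 h2 => h r ⟨h1, h2⟩, fun h r h1 => h r h1.1 h1.2⟩
  have hinv : ∀ g ∈ H, ∀ w ∈ W, g w ∈ W := by
    intro g hg w hw
    rw [hW] at hw ⊢
    intro r hr hrn
    have := hw _ (hr.conj hB (H.inv_mem hg)) (by
      rintro ⟨g', hg', e⟩
      apply hrn
      refine ⟨g * g', H.mul_mem hg hg', ?_⟩
      have : r = g * (g⁻¹ * r * g⁻¹⁻¹) * g⁻¹ := by group
      rw [this, e]
      group)
    simp only [mul_app, inv_inv] at this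
    have h2 := congrArg g this
    simpa using h2
  have hRt : Rt t ≤ W := by
    intro u hu
    rw [hW]
    intro r hr hrn
    have hcomm : r * t = t * r := by
      by_contra hc
      exact hrn (conj_of_noncomm hB hchar hr ht hc |>.elim fun g hg =>
        ⟨g⁻¹, H.inv_mem hg.1, by rw [hg.2]; group⟩)
    have hne : r ≠ t := by
      rintro rfl
      exact hrn ⟨1, H.one_mem, by group⟩
    exact mem_Fx.1 (Rt_le_Fx_of_comm hB hr ht hne hcomm hu)
  rcases hirr W hinv with h0 | h0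
  · obtain ⟨u, hu, hu0⟩ := Pair.exists_ne_zero_Rt hB ht
    have := hRt hu
    rw [h0, Submodule.mem_bot] at this
    exact hu0 this
  · obtain ⟨y, hy⟩ := hr.exists_moved
    have : y ∈ W := by rw [h0]; trivial
    exact hy ((hW y).1 this t' hr hnot)

/-- E5. -/
lemma exists_noncomm (hirr : Irr H) (ht : IsRefl H t) : ∃ r r', IsRefl H r ∧ IsRefl H r' ∧ r * r' ≠ r' * r := by
  by_contra hh
  push Not at hh
  obtain ⟨u, hu, hu0⟩ := Pair.exists_ne_zero_Rt hB ht
  apply hu0
  refine eq_zero_of_refl_fix hB hirr ht fun r hr => ?_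
  by_cases hrt : r = t
  · rw [hrt]
    exact ht.app_of_Rt hB hchar hu
  · exact mem_Fx.1 (Rt_le_Fx_of_comm hB hr ht hrt (hh r t hr ht) hu)

/-- Pairs exist and are admissible. -/
lemma pair_of_noncomm (ht : IsRefl H t) (ht' : IsRefl H t') (hnc : t * t' ≠ t' * t) : Pair H t t' := by
  obtain ⟨m, hm, hx⟩ := odd_order hB hchar ht ht' hnc
  exact ⟨ht, ht', hnc, cop_of_odd hchar hm hx⟩

/-- E7. -/
lemma W_eq_bot (hirr : Irr H) (P : Pair H t t') : Fx t ⊓ Fx t' = ⊥ := by
  rw [Submodule.eq_bot_iff]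
  intro w hw
  by_contra hw0
  have : ∃ r, IsRefl H r ∧ r w ≠ w := by
    by_contra hh
    push Not at hh
    exact hw0 (eq_zero_of_refl_fix hB hirr P.ht hh)
  obtain ⟨r, hr, hrw⟩ := this
  have hb0 : r w - w ≠ 0 := sub_ne_zero.2 hrw
  obtain ⟨s, hs, hsW, hsb⟩ := P.exists_S hB (r w - w)
  have hcomm := comm_of_fix_root hB hr (sub_mem_Rt r w) hb0 hs.mem hsb
  have hne : r ≠ s := by
    rintro rfl
    exact hrw (mem_Fx.1 (hsW hw))
  obtain ⟨g, hg, e⟩ := all_conj hB hchar hirr hr hs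
  have hE := swap_eq hB hchar hr hs hne hcomm.symm hg e
  have : w ∈ Fx r := by
    rw [← hE]
    exact hsW hw
  exact hrw (mem_Fx.1 this)

/-- The output of the characteristic two track. -/
theorem even_top (hirr : Irr H) (ht : IsRefl H t) :
    ∃ α, TopData H α := by
  obtain ⟨r, r', hr, hr', hnc⟩ := exists_noncomm hB hchar hirr ht
  have P := pair_of_noncomm hB hchar hr hr' hnc
  have hW := W_eq_bot hB hchar hirr P
  have hdW := P.dim_W hB
  rw [hW, finrank_bot] at hdW
  have hdim : ∀ s, IsRefl H s → Module.finrank (ZMod p) (Rt s) = Module.finrank (ZMod p) (Rt r) := by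
    intro s hs
    have hsW : Fx r ⊓ Fx r' ≤ Fx s := by rw [hW]; exact bot_le
    rcases P.S_noncomm hB hs hsW with h | h
    · exact (pair_of_noncomm hB hchar hs hr h).dim hB
    · rw [P.dim hB]
      exact (pair_of_noncomm hB hchar hs hr' h).dim hB
  have hFR : ∀ s, IsRefl H s → Fx s = Rt s := by
    intro s hs
    symm
    refine eq_of_le_finrank (hs.Rt_le_Fx hB hchar) ?_
    have h1 := finrank_Rt_add_Fx s
    have h2 := hdim s hs
    omega
  refine ⟨Module.finrank (ZMod p) (Rt r), finrank_Rt_pos hB hr, by omega, hdim, ?_, ?_, ?_⟩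
  · intro v _
    obtain ⟨s, hs, -, hsv⟩ := P.exists_S hB v
    exact ⟨s, hs, by rw [← hFR s hs]; exact mem_Fx.2 hsv⟩
  · intro v _
    obtain ⟨s, hs, -, hsv⟩ := P.exists_S hB v
    exact ⟨s, hs, mem_Fx.2 hsv⟩
  · intro s s' hs hs' hne
    rw [hFR s hs, hFR s' hs']
    exact inf_Rt_eq_bot hB hs hs' hne

end Even

end Cfsg.Agent.AffBin
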