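import Mathlib

/-! Binary primitive affine groups: the final identification with a quadratic extension. -/

set_option autoImplicit false

namespace Cfsg.Agent.AffBin

theorem final0 {Ω : Type*} (P : Set (Equiv.Perm Ω)) (E : Type) [Field E] [Fintype E] (e : Ω ≃ E)
    (σ : E ≃+* E) (hσ : ∀ z, σ (σ z) = z) (hσ1 : ∃ z, σ z ≠ z) (a : ℕ)
    (ha : Fintype.card E = a ^ 2)
    (hP : ∀ π : Equiv.Perm Ω, π ∈ P ↔ ∃ k b : E, k ^ (a + 1) = 1 ∧
      ((∀ ω, e (π ω) = k * e ω + b) ∨ (∀ ω, e (π ω) = k * σ (e ω) + b))) :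
    ∃ (F E : Type) (_ : Field F) (_ : Fintype F) (_ : Field E) (_ : Fintype E) (_ : Algebra F E)
      (e : Ω ≃ E), Module.finrank F E = 2 ∧
        ∀ π : Equiv.Perm Ω, π ∈ P ↔
          ∃ (a b : E) (φ : E ≃ₐ[F] E), Algebra.norm F a = 1 ∧ ∀ ω : Ω, e (π ω) = a * φ (e ω) + b := by
  classical
  haveI : Finite (RingAut E) :=
    Finite.of_injective (fun f : E ≃+* E => (f : E → E)) DFunLike.coe_injective
  let σ' : RingAut E := σ
  let G₀ : Subgroup (RingAut E) := Subgroup.zpowers σ'
  haveI : Fintype G₀ := Fintype.ofFinite _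
  have hσ2 : σ' ^ 2 = 1 := by
    rw [pow_two]
    exact RingEquiv.ext hσ
  have hσ1' : σ' ≠ 1 := by
    intro h
    obtain ⟨z, hz⟩ := hσ1
    exact hz (congrArg (fun f : RingAut E => f z) h)
  have hord : orderOf σ' = 2 := orderOf_eq_prime hσ2 hσ1'
  have hcardG : Fintype.card G₀ = 2 := by
    rw [Fintype.card_eq_nat_card, Nat.card_zpowers, hord]
  let F : Subfield E := FixedPoints.subfield G₀ E
  have hfin : Module.finrank F E = 2 := by
    rw [← hcardG]
    exact FixedPoints.finrank_eq_card G₀ E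
  have hFσ : ∀ c : F, σ (c : E) = c := by
    intro c
    exact c.2 ⟨σ', Subgroup.mem_zpowers σ'⟩
  haveI : Fintype F := Fintype.ofFinite _
  have hcardF : Fintype.card F = a := by
    have h1 : Fintype.card E = Fintype.card F ^ Module.finrank F E := Module.card_eq_pow_finrank
    rw [hfin, ha] at h1
    exact (Nat.pow_left_injective (n := 2) (by norm_num) h1).symm
  have ha2 : 2 ≤ a := by
    rw [← hcardF]
    exact Fintype.one_lt_card
  let σa : E ≃ₐ[F] E := AlgEquiv.ofRingEquiv (f := σ) (fun c => hFσ c)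
  have hσa : ∀ z, σa z = σ z := fun _ => rfl
  have hnorm : ∀ x : E, Algebra.norm F x = 1 ↔ x ^ (a + 1) = 1 := by
    intro x
    have h1 := FiniteField.algebraMap_norm_eq_pow (K := F) (K' := E) (x := x)
    have h2 : (Nat.card E - 1) / (Nat.card F - 1) = a + 1 := by
      rw [Nat.card_eq_fintype_card, Nat.card_eq_fintype_card, ha, hcardF]
      apply Nat.div_eq_of_eq_mul_left (by omega)
      have := Nat.sq_sub_sq a 1
      simpa using this
    rw [h2] at h1
    rw [← h1]
    constructor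
    · intro h
      rw [h, map_one]
    · intro h
      apply (algebraMap F E).injective
      rw [h, map_one]
  have haut : ∀ φ : E ≃ₐ[F] E, φ = 1 ∨ φ = σa := by
    intro φ
    by_contra h
    push Not at h
    haveI : FiniteDimensional F E := Module.Finite.of_finite
    have h1 := AlgEquiv.card_le (F := F) (K := E)
    rw [hfin] at h1
    have hne : (1 : E ≃ₐ[F] E) ≠ σa := by
      intro h2
      obtain ⟨z, hz⟩ := hσ1
      apply hz
      rw [← hσa, ← h2]
      rfl
    have h2 : ({1, σa, φ} : Finset (E ≃ₐ[F] E)).card = 3 := by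
      rw [Finset.card_eq_three]
      exact ⟨1, σa, φ, hne, h.1.symm, h.2.symm, rfl⟩
    have h3 := Finset.card_le_univ ({1, σa, φ} : Finset (E ≃ₐ[F] E))
    omega
  refine ⟨F, E, inferInstance, inferInstance, inferInstance, inferInstance, inferInstance, e, hfin, ?_⟩
  intro π
  rw [hP]
  constructor
  · rintro ⟨k, b, hk, h | h⟩
    · exact ⟨k, b, 1, (hnorm k).2 hk, fun ω => by rw [h ω]; rfl⟩
    · exact ⟨k, b, σa, (hnorm k).2 hk, fun ω => by rw [h ω, hσa]⟩
  · rintro ⟨k, b, φ, hk, h⟩
    refine ⟨k, b, (hnorm k).1 hk, ?_⟩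
    rcases haut φ with rfl | rfl
    · exact Or.inl fun ω => by rw [h ω]; rfl
    · exact Or.inr fun ω => by rw [h ω, hσa]

/-- A carrier type without any algebraic instances. -/
def Car (n : ℕ) : Type := Fin n

noncomputable instance (n : ℕ) : Fintype (Car n) := inferInstanceAs (Fintype (Fin n))

theorem final1 {Ω : Type*} (P : Set (Equiv.Perm Ω)) (D : Type*) [Field D] [Finite D] (e₁ : Ω ≃ D)
    (σ : D ≃+* D) (K₀ : Set D) (a : ℕ) (hσ : ∀ z, σ (σ z) = z) (hσ1 : ∃ z, σ z ≠ z)
    (hcard : Nat.card D = a ^ 2) (hK : K₀.ncard = a + 1) (hpow : ∀ k ∈ K₀, k ^ (a + 1) = 1)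
    (hP : ∀ π : Equiv.Perm Ω, π ∈ P ↔ ∃ k ∈ K₀, ∃ b,
      (∀ ω, e₁ (π ω) = k * e₁ ω + b) ∨ (∀ ω, e₁ (π ω) = k * σ (e₁ ω) + b)) :
    ∃ (F E : Type) (_ : Field F) (_ : Fintype F) (_ : Field E) (_ : Fintype E) (_ : Algebra F E)
      (e : Ω ≃ E), Module.finrank F E = 2 ∧
        ∀ π : Equiv.Perm Ω, π ∈ P ↔
          ∃ (a b : E) (φ : E ≃ₐ[F] E), Algebra.norm F a = 1 ∧ ∀ ω : Ω, e (π ω) = a * φ (e ω) + b := by
  classical
  -- `K₀` is the set of all `(a+1)`-st roots of unity
  have hKeq : K₀ = {k | k ^ (a + 1) = 1} := by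
    apply Set.eq_of_subset_of_ncard_le hpow
    · rw [hK]
      have hsub : {k : D | k ^ (a + 1) = 1} ⊆ ((Polynomial.nthRoots (a + 1) (1 : D)).toFinset : Set D) := by
        intro k hk
        simp only [Finset.mem_coe, Multiset.mem_toFinset]
        rw [Polynomial.mem_nthRoots (by omega)]
        exact hk
      calc Set.ncard {k : D | k ^ (a + 1) = 1}
          ≤ Set.ncard ((Polynomial.nthRoots (a + 1) (1 : D)).toFinset : Set D) :=
            Set.ncard_le_ncard hsub (Finset.finite_toSet _)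
        _ = (Polynomial.nthRoots (a + 1) (1 : D)).toFinset.card := Set.ncard_coe_finset _
        _ ≤ (Polynomial.nthRoots (a + 1) (1 : D)).card := Multiset.toFinset_card_le _
        _ ≤ a + 1 := Polynomial.card_nthRoots _ _
  let n := Nat.card D
  let ε : Car n ≃ D := (Finite.equivFin D).symm
  letI fE : Field (Car n) := ε.field
  let ρ : Car n ≃+* D :=
    { ε with
      map_mul' := fun x y => by
        change ε (ε.symm (ε x * ε y)) = _
        simp
      map_add' := fun x y => by
        change ε (ε.symm (ε x + ε y)) = _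
        simp }
  have hρ : ∀ x, ρ x = ε x := fun _ => rfl
  have hsym : ∀ x, ρ.symm x = ε.symm x := fun _ => rfl
  refine final0 P (Car n) (e₁.trans ε.symm) (ρ.trans (σ.trans ρ.symm)) ?_ ?_ a ?_ ?_
  · intro z
    simp [hσ]
  · obtain ⟨z, hz⟩ := hσ1
    refine ⟨ρ.symm z, fun h => hz ?_⟩
    have := congrArg ρ h
    simpa using this
  · have : Fintype.card (Car n) = n := Fintype.card_fin n
    rw [this]
    exact hcard
  · intro π
    rw [hP]
    have he' : ∀ ω, ρ ((e₁.trans ε.symm) ω) = e₁ ω := fun ω => ε.apply_symm_apply _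
    have hσ' : ∀ x, ρ ((ρ.trans (σ.trans ρ.symm)) x) = σ (ρ x) := fun x => ρ.apply_symm_apply _
    constructor
    · rintro ⟨k, hk, b, h | h⟩
      · refine ⟨ρ.symm k, ρ.symm b, ?_, Or.inl fun ω => ?_⟩
        · rw [← map_pow, (hpow k hk), map_one]
        · apply ρ.injective
          rw [map_add, map_mul, he', he', ρ.apply_symm_apply, ρ.apply_symm_apply]
          exact h ω
      · refine ⟨ρ.symm k, ρ.symm b, ?_, Or.inr fun ω => ?_⟩
        · rw [← map_pow, (hpow k hk), map_one]
        · apply ρ.injective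
          rw [map_add, map_mul, he', hσ', he', ρ.apply_symm_apply, ρ.apply_symm_apply]
          exact h ω
    · rintro ⟨k, b, hk, h | h⟩
      · refine ⟨ρ k, ?_, ρ b, Or.inl fun ω => ?_⟩
        · rw [hKeq]
          show (ρ k) ^ (a + 1) = 1
          rw [← map_pow, hk, map_one]
        · have := congrArg ρ (h ω)
          rw [map_add, map_mul, he', he'] at this
          exact this
      · refine ⟨ρ k, ?_, ρ b, Or.inr fun ω => ?_⟩
        · rw [hKeq]
          show (ρ k) ^ (a + 1) = 1
          rw [← map_pow, hk, map_one]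
        · have := congrArg ρ (h ω)
          rw [map_add, map_mul, he', hσ', he'] at this
          exact this

end Cfsg.Agent.AffBin
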