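import Cfsg.Agent.Lib.Classical.AffBin.Pair

/-! Binary primitive affine groups: reduction from a permutation group to a linear group. -/

set_option autoImplicit false

open scoped IsMulCommutative

namespace Cfsg.Agent.AffBin

section Model
variable {G Ω : Type*} [Group G] [MulAction G Ω] {p : ℕ} [Fact p.Prime]
  (N : Subgroup G) [hN : N.Normal] [hc : IsMulCommutative N] [Module (ZMod p) (Additive N)]

/-- The group element of a vector. -/
def tr (v : Additive N) : G := ((Additive.toMul v : N) : G)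

omit hN [Fact p.Prime] in
variable {N} in
@[simp] lemma tr_add (a b : Additive N) : tr N (a + b) = tr N a * tr N b := rfl

variable {N} in
@[simp] lemma tr_zero : tr N 0 = 1 := rfl

variable {N} in
lemma tr_inj {a b : Additive N} (h : tr N a = tr N b) : a = b := by
  apply Additive.toMul.injective
  exact Subtype.ext h

variable {N} in
lemma tr_mem (a : Additive N) : tr N a ∈ N := (Additive.toMul a).2

/-- The vector of a group element of `N`. -/
def mkV (n : G) (hn : n ∈ N) : Additive N := Additive.ofMul ⟨n, hn⟩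

variable {N} in
@[simp] lemma tr_mkV (n : G) (hn : n ∈ N) : tr N (mkV N n hn) = n := rfl

/-- Conjugation as a linear map. -/
def conjE (g : G) : Additive N ≃ₗ[ZMod p] Additive N :=
  { toFun := fun v => mkV N (g * tr N v * g⁻¹) (hN.conj_mem _ (tr_mem v) g)
    invFun := fun v => mkV N (g⁻¹ * tr N v * g) (by
      have := hN.conj_mem _ (tr_mem v) g⁻¹
      rwa [inv_inv] at this)
    map_add' := fun a b => by
      apply tr_inj
      simp only [tr_mkV, tr_add]
      group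
    map_smul' := fun c v => by
      let f : Additive N →+ Additive N := AddMonoidHom.mk' (fun v => mkV N (g * tr N v * g⁻¹)
        (hN.conj_mem _ (tr_mem v) g)) (fun a b => by
          apply tr_inj
          simp only [tr_mkV, tr_add]
          group)
      exact ZMod.map_smul f c v
    left_inv := fun v => by
      apply tr_inj
      simp only [tr_mkV]
      group
    right_inv := fun v => by
      apply tr_inj
      simp only [tr_mkV]
      group }

variable {N} in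
@[simp] lemma tr_conjE (g : G) (v : Additive N) :
    tr N ((conjE (p := p) N g) v) = g * tr N v * g⁻¹ := rfl

/-- Conjugation as a group homomorphism. -/
def conjHom : G →* (Additive N ≃ₗ[ZMod p] Additive N) :=
  MonoidHom.mk' (conjE (p := p) N) (fun a b => by
    apply LinearEquiv.ext
    intro v
    apply tr_inj
    show tr N (conjE (p := p) N (a * b) v) = tr N (conjE (p := p) N a (conjE (p := p) N b v))
    simp only [tr_conjE]
    group)

variable {N} in
@[simp] lemma conjHom_apply (g : G) (v : Additive N) :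
    conjHom (p := p) N g v = conjE (p := p) N g v := rfl

/-- The point stabilizer as a linear group. -/
def HH (ω₀ : Ω) : Subgroup (Additive N ≃ₗ[ZMod p] Additive N) :=
  (MulAction.stabilizer G ω₀).map (conjHom (p := p) N)

section Affine
variable {N} {ω₀ : Ω}

lemma e0_conj {g : G} (hg : g ∈ MulAction.stabilizer G ω₀) (v : Additive N) :
    tr N (conjE (p := p) N g v) • ω₀ = g • (tr N v • ω₀) := by
  have hg' : g • ω₀ = ω₀ := hg
  have hg'' : g⁻¹ • ω₀ = ω₀ := by
    rw [inv_smul_eq_iff, hg']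
  rw [tr_conjE, mul_smul, mul_smul, hg'']

lemma smul_e0' {g₁ : G} (hg₁ : g₁ ∈ MulAction.stabilizer G ω₀) (b v : Additive N) :
    (tr N b * g₁) • (tr N v • ω₀) = tr N (conjE (p := p) N g₁ v + b) • ω₀ := by
  rw [mul_smul, ← e0_conj (p := p) hg₁, add_comm, tr_add, mul_smul]

lemma smul_e0 (htrans : ∀ ω ω' : Ω, ∃ n ∈ N, n • ω = ω') (g : G) :
    ∃ g₁ ∈ MulAction.stabilizer G ω₀, ∃ b : Additive N, ∀ v : Additive N,
      g • (tr N v • ω₀) = tr N (conjE (p := p) N g₁ v + b) • ω₀ := by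
  obtain ⟨n, hn, hb⟩ := htrans ω₀ (g • ω₀)
  have hg₁ : n⁻¹ * g ∈ MulAction.stabilizer G ω₀ := by
    show (n⁻¹ * g) • ω₀ = ω₀
    rw [mul_smul, ← hb, inv_smul_smul]
  refine ⟨_, hg₁, mkV N n hn, fun v => ?_⟩
  rw [← smul_e0' hg₁, tr_mkV, mul_inv_cancel_left]

lemma e0_inj (hfree : ∀ n ∈ N, ∀ ω : Ω, n • ω = ω → n = 1) {a b : Additive N}
    (h : tr N a • ω₀ = tr N b • ω₀) : a = b := by
  apply tr_inj
  have h1 : (tr N b)⁻¹ * tr N a = 1 := by
    apply hfree _ (N.mul_mem (N.inv_mem (tr_mem b)) (tr_mem a)) ω₀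
    rw [mul_smul, h, inv_smul_smul]
  exact (inv_mul_eq_one.1 h1).symm

lemma e0_surj (htrans : ∀ ω ω' : Ω, ∃ n ∈ N, n • ω = ω') (ω : Ω) :
    ∃ v : Additive N, tr N v • ω₀ = ω := by
  obtain ⟨n, hn, h⟩ := htrans ω₀ ω
  exact ⟨mkV N n hn, h⟩

theorem irr_of_prim (hprim : MulAction.IsPreprimitive G Ω)
    (htrans : ∀ ω ω' : Ω, ∃ n ∈ N, n • ω = ω') (hfree : ∀ n ∈ N, ∀ ω : Ω, n • ω = ω → n = 1) :
    Irr (HH (p := p) N ω₀) := by
  intro W hW
  let B : Set Ω := (fun v : Additive N => tr N v • ω₀) '' (W : Set (Additive N))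
  have hblock : MulAction.IsBlock G B := by
    rw [MulAction.isBlock_iff_smul_eq_of_nonempty]
    rintro g ⟨z, hz1, hz2⟩
    obtain ⟨g₁, hg₁, b, hgb⟩ := smul_e0 (p := p) (ω₀ := ω₀) htrans g
    have hh : conjHom (p := p) N g₁ ∈ HH (p := p) N ω₀ := Subgroup.mem_map_of_mem _ hg₁
    obtain ⟨_, ⟨w, hw, rfl⟩, rfl⟩ := Set.mem_smul_set.1 hz1
    obtain ⟨w', hw', hzw⟩ := hz2
    simp only at hzw
    rw [hgb w] at hzw
    have hbW : b ∈ W := by
      have h1 := e0_inj hfree hzw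
      have h2 : b = w' - conjE (p := p) N g₁ w := by
        rw [h1]
        abel
      rw [h2]
      exact W.sub_mem hw' (hW _ hh w hw)
    ext z
    constructor
    · intro hz
      obtain ⟨_, ⟨v, hv, rfl⟩, rfl⟩ := Set.mem_smul_set.1 hz
      refine ⟨conjE (p := p) N g₁ v + b, W.add_mem (hW _ hh v hv) hbW, ?_⟩
      exact (hgb v).symm
    · rintro ⟨v, hv, rfl⟩
      have hinv := (HH (p := p) N ω₀).inv_mem hh
      refine Set.mem_smul_set.2 ⟨_, ⟨(conjHom (p := p) N g₁)⁻¹ (v - b),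
        hW _ hinv _ (W.sub_mem hv hbW), rfl⟩, ?_⟩
      simp only
      rw [hgb]
      have : conjE (p := p) N g₁ ((conjHom (p := p) N g₁)⁻¹ (v - b)) = v - b :=
        app_inv (conjHom (p := p) N g₁) (v - b)
      rw [this, sub_add_cancel]
  rcases hblock.subsingleton_or_eq_univ with h | h
  · left
    rw [Submodule.eq_bot_iff]
    intro w hw
    have h1 : tr N w • ω₀ = tr N (0 : Additive N) • ω₀ :=
      h ⟨w, hw, rfl⟩ ⟨0, W.zero_mem, rfl⟩
    exact e0_inj hfree h1
  · right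
    rw [Submodule.eq_top_iff']
    intro v
    have h1 : tr N v • ω₀ ∈ B := by rw [h]; trivial
    obtain ⟨w, hw, hwv⟩ := h1
    rw [← e0_inj hfree hwv]
    exact hw

theorem bp_of_bin [Finite G] (htrans : ∀ ω ω' : Ω, ∃ n ∈ N, n • ω = ω')
    (hfree : ∀ n ∈ N, ∀ ω : Ω, n • ω = ω → n = 1)
    (hbin : ∀ (n : ℕ) (I J : Fin n → Ω), 2 ≤ n →
      (∀ i j : Fin n, i ≠ j → ∃ g : G, g • I i = J i ∧ g • I j = J j) → ∃ g : G, ∀ i, g • I i = J i) :
    BP (HH (p := p) N ω₀) := by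
  classical
  intro S h1 h2
  have hfinV : (S ∪ {(0, 0)}).Finite := Set.toFinite _
  let l : List (Additive N × Additive N) := (0, 0) :: (0, 0) :: hfinV.toFinset.toList
  have hl : ∀ x ∈ l, x ∈ S ∨ x = (0, 0) := by
    intro x hx
    simp only [l, List.mem_cons, Finset.mem_toList, Set.Finite.mem_toFinset] at hx
    rcases hx with rfl | rfl | hx
    · exact Or.inr rfl
    · exact Or.inr rfl
    · rcases hx with hx | hx
      · exact Or.inl hx
      · exact Or.inr hx
  have hl' : ∀ x ∈ S, x ∈ l := by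
    intro x hx
    simp only [l, List.mem_cons, Finset.mem_toList, Set.Finite.mem_toFinset]
    exact Or.inr (Or.inr (Or.inl hx))
  have hrel : ∀ x ∈ l, ∀ y ∈ l, Rel (HH (p := p) N ω₀) (x.1 - y.1) (x.2 - y.2) := by
    intro x hx y hy
    rcases hl x hx with hx | rfl <;> rcases hl y hy with hy | rfl
    · exact h2 x hx y hy
    · simpa using h1 x hx
    · simpa using (h1 y hy).neg
    · simpa using Rel.refl (0 : Additive N)
  have hlen : 2 ≤ l.length := by simp [l]
  obtain ⟨g, hg⟩ := hbin l.length (fun i => tr N (l.get i).1 • ω₀) (fun i => tr N (l.get i).2 • ω₀)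
    hlen (by
      intro i j _
      obtain ⟨h, ⟨g₁, hg₁, rfl⟩, hh⟩ := hrel _ (List.get_mem l i) _ (List.get_mem l j)
      set x := l.get i
      set y := l.get j
      have hh' : conjE (p := p) N g₁ (x.1 - y.1) = x.2 - y.2 := hh
      rw [map_sub] at hh'
      refine ⟨tr N (y.2 - conjE (p := p) N g₁ y.1) * g₁, ?_, ?_⟩
      · rw [smul_e0' (p := p) hg₁]
        have e : conjE (p := p) N g₁ x.1 + (y.2 - conjE (p := p) N g₁ y.1) = x.2 := by grind
        rw [e]
      · rw [smul_e0' (p := p) hg₁]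
        have e : conjE (p := p) N g₁ y.1 + (y.2 - conjE (p := p) N g₁ y.1) = y.2 := by abel
        rw [e])
  have h0 : g • ω₀ = ω₀ := by
    have := hg ⟨0, by omega⟩
    simpa [l] using this
  refine ⟨conjHom (p := p) N g, Subgroup.mem_map_of_mem _ h0, fun x hx => ?_⟩
  obtain ⟨i, hi⟩ := List.mem_iff_get.1 (hl' x hx)
  have h3 := hg i
  simp only [hi] at h3
  rw [← e0_conj (p := p) h0] at h3
  exact e0_inj hfree h3

theorem range_iff (htrans : ∀ ω ω' : Ω, ∃ n ∈ N, n • ω = ω') (π : Equiv.Perm Ω) :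
    π ∈ (MulAction.toPermHom G Ω).range ↔
      ∃ h ∈ HH (p := p) N ω₀, ∃ b : Additive N, ∀ v, π (tr N v • ω₀) = tr N (h v + b) • ω₀ := by
  constructor
  · rintro ⟨g, rfl⟩
    obtain ⟨g₁, hg₁, b, hgb⟩ := smul_e0 (p := p) (ω₀ := ω₀) htrans g
    exact ⟨_, Subgroup.mem_map_of_mem _ hg₁, b, hgb⟩
  · rintro ⟨_, ⟨g₁, hg₁, rfl⟩, b, hb⟩
    refine ⟨tr N b * g₁, Equiv.ext fun ω => ?_⟩
    obtain ⟨v, rfl⟩ := e0_surj htrans (ω₀ := ω₀) ω
    rw [hb]
    exact smul_e0' hg₁ b v

theorem card_HH [FaithfulSMul G Ω] (htrans : ∀ ω ω' : Ω, ∃ n ∈ N, n • ω = ω') :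
    Nat.card (HH (p := p) N ω₀) = Nat.card (MulAction.stabilizer G ω₀) := by
  symm
  refine Nat.card_eq_of_bijective (fun g => ⟨conjHom (p := p) N g.1, Subgroup.mem_map_of_mem _ g.2⟩) ⟨?_, ?_⟩
  · rintro ⟨g, hg⟩ ⟨g', hg'⟩ h
    have h1 : conjHom (p := p) N g = conjHom (p := p) N g' := congrArg Subtype.val h
    apply Subtype.ext
    apply FaithfulSMul.eq_of_smul_eq_smul (α := Ω)
    intro ω
    obtain ⟨v, rfl⟩ := e0_surj htrans (ω₀ := ω₀) ω
    rw [← e0_conj (p := p) hg, ← e0_conj (p := p) hg']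
    show tr N (conjHom (p := p) N g v) • ω₀ = tr N (conjHom (p := p) N g' v) • ω₀
    rw [h1]
  · rintro ⟨_, ⟨g, hg, rfl⟩⟩
    exact ⟨⟨g, hg⟩, rfl⟩

end Affine

end Model

section Setup
variable {G Ω : Type*} [Group G] [Finite G] [MulAction G Ω] [FaithfulSMul G Ω]

/-- An elementary abelian regular normal subgroup. -/
theorem exists_regular_normal (hprim : MulAction.IsPreprimitive G Ω)
    (haff : ∃ N : Subgroup G, N.Normal ∧ N ≠ ⊥ ∧ IsMulCommutative ↥N) :
    ∃ (p : ℕ) (N' : Subgroup G), p.Prime ∧ N'.Normal ∧ IsMulCommutative ↥N' ∧ N' ≠ ⊥ ∧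
      (∀ a ∈ N', a ^ p = 1) ∧ (∀ ω ω' : Ω, ∃ n ∈ N', n • ω = ω') ∧
      (∀ n ∈ N', ∀ ω : Ω, n • ω = ω → n = 1) := by
  classical
  obtain ⟨N, hNn, hN0, hNc⟩ := haff
  have hcomm : ∀ a ∈ N, ∀ b ∈ N, a * b = b * a := fun a ha b hb =>
    congrArg Subtype.val (mul_comm' (⟨a, ha⟩ : N) ⟨b, hb⟩)
  have hcard : Nat.card N ≠ 1 := fun h => hN0 ((Subgroup.eq_bot_iff_card N).2 h)
  obtain ⟨p, hp, hdvd⟩ := Nat.exists_prime_and_dvd hcard
  haveI : Fact p.Prime := ⟨hp⟩
  obtain ⟨x, hx⟩ := exists_prime_orderOf_dvd_card' p hdvd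
  let N' : Subgroup G :=
    { carrier := {a | a ∈ N ∧ a ^ p = 1}
      one_mem' := ⟨N.one_mem, one_pow p⟩
      mul_mem' := by
        rintro a b ⟨ha, ha'⟩ ⟨hb, hb'⟩
        refine ⟨N.mul_mem ha hb, ?_⟩
        rw [(show Commute a b from hcomm a ha b hb).mul_pow, ha', hb', one_mul]
      inv_mem' := by
        rintro a ⟨ha, ha'⟩
        exact ⟨N.inv_mem ha, by rw [inv_pow, ha', inv_one]⟩ }
  have hN'N : ∀ a ∈ N', a ∈ N ∧ a ^ p = 1 := fun _ h => h
  have hN'n : N'.Normal := ⟨by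
    rintro a ⟨ha, ha'⟩ g
    refine ⟨hNn.conj_mem a ha g, ?_⟩
    rw [conj_pow, ha', mul_one, mul_inv_cancel]⟩
  have hxN' : (x : G) ∈ N' := ⟨x.2, by
    have : x ^ p = 1 := orderOf_dvd_iff_pow_eq_one.1 (dvd_of_eq hx)
    exact_mod_cast congrArg Subtype.val this⟩
  have hx1 : (x : G) ≠ 1 := by
    intro h
    have : x = 1 := Subtype.ext h
    rw [this, orderOf_one] at hx
    exact hp.one_lt.ne hx
  have hN'0 : N' ≠ ⊥ := by
    intro h
    rw [h, Subgroup.mem_bot] at hxN'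
    exact hx1 hxN'
  have hfix : MulAction.fixedPoints N' Ω ≠ Set.univ := by
    intro h
    apply hx1
    apply FaithfulSMul.eq_of_smul_eq_smul (α := Ω)
    intro ω
    have h1 : ω ∈ MulAction.fixedPoints N' Ω := by rw [h]; trivial
    rw [one_smul]
    exact h1 ⟨x, hxN'⟩
  haveI := hN'n
  have htrans' : MulAction.IsPretransitive N' Ω :=
    MulAction.IsQuasiPreprimitive.isPretransitive_of_normal hfix
  have htrans : ∀ ω ω' : Ω, ∃ n ∈ N', n • ω = ω' := by
    intro ω ω'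
    obtain ⟨n, hn⟩ := htrans'.exists_smul_eq ω ω'
    exact ⟨n.1, n.2, hn⟩
  refine ⟨p, N', hp, hN'n, IsMulCommutative.of_comm fun a b => ?_, hN'0, fun a ha => ha.2, htrans, ?_⟩
  · exact Subtype.ext (hcomm a a.2.1 b b.2.1)
  · intro n hn ω hnω
    apply FaithfulSMul.eq_of_smul_eq_smul (α := Ω)
    intro ω'
    obtain ⟨m, hm, rfl⟩ := htrans ω ω'
    rw [one_smul, ← mul_smul, hcomm n hn.1 m hm.1, mul_smul, hnω]

end Setup


end Cfsg.Agent.AffBin
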