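import Cfsg.Agent.Lib.Classical.AffBin.Top
import Cfsg.Agent.Lib.Classical.AffBin.Final
import Cfsg.Agent.Lib.Classical.AffBin.Reduction

/-! Binary primitive affine groups: the main theorem. -/

set_option autoImplicit false

open scoped IsMulCommutative

namespace Cfsg.Agent.AffBin

theorem main {G Ω : Type*} [Group G] [Finite G] [MulAction G Ω] [FaithfulSMul G Ω] [Fintype Ω]
    (hprim : MulAction.IsPreprimitive G Ω)
    (haff : ∃ N : Subgroup G, N.Normal ∧ N ≠ ⊥ ∧ IsMulCommutative ↥N)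
    (hbin : ∀ (n : ℕ) (I J : Fin n → Ω), 2 ≤ n →
      (∀ i j : Fin n, i ≠ j → ∃ g : G, g • I i = J i ∧ g • I j = J j) → ∃ g : G, ∀ i, g • I i = J i) :
    ((Fintype.card Ω).Prime ∧ ∀ ω : Ω, Nat.card ↥(MulAction.stabilizer G ω) ≤ 2) ∨
    (∃ (F E : Type) (_ : Field F) (_ : Fintype F) (_ : Field E) (_ : Fintype E) (_ : Algebra F E) (e : Ω ≃ E),
        Module.finrank F E = 2 ∧
        ∀ σ : Equiv.Perm Ω, σ ∈ (MulAction.toPermHom G Ω).range ↔
          ∃ (a b : E) (φ : E ≃ₐ[F] E), Algebra.norm F a = 1 ∧ ∀ ω : Ω, e (σ ω) = a * φ (e ω) + b) := by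
  classical
  obtain ⟨p, N, hp, hNn, hNc, hN0, hpow, htrans, hfree⟩ := exists_regular_normal hprim haff
  haveI : Fact p.Prime := ⟨hp⟩
  haveI := hNn
  haveI := hNc
  letI : Module (ZMod p) (Additive N) := AddCommGroup.zmodModule (n := p) (fun x => by
    apply Additive.toMul.injective
    apply Subtype.ext
    have h1 : ((Additive.toMul (p • x) : N) : G) = ((Additive.toMul x : N) : G) ^ p := rfl
    rw [h1, hpow _ (Additive.toMul x).2]
    rfl)
  obtain ⟨ω₀⟩ : Nonempty Ω := by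
    by_contra h
    rw [not_nonempty_iff] at h
    apply hN0
    rw [Subgroup.eq_bot_iff_forall]
    intro a _
    exact FaithfulSMul.eq_of_smul_eq_smul (α := Ω) fun ω => h.elim ω
  have hB : BP (HH (p := p) N ω₀) := bp_of_bin htrans hfree hbin
  have hirr : Irr (HH (p := p) N ω₀) := irr_of_prim hprim htrans hfree
  haveI : Finite (Additive N) := inferInstanceAs (Finite N)
  haveI : Nontrivial (Additive N) := by
    obtain ⟨a, ha⟩ := Subgroup.ne_bot_iff_exists_ne_one.1 hN0
    exact ⟨⟨Additive.ofMul a, 0, fun h => ha (Additive.ofMul.injective h)⟩⟩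
  let e₀ : Additive N ≃ Ω := Equiv.ofBijective (fun v => tr N v • ω₀)
    ⟨fun _ _ h => e0_inj hfree h, fun ω => e0_surj htrans ω⟩
  have he₀ : ∀ v, e₀ v = tr N v • ω₀ := fun _ => rfl
  rcases dichotomy hB hirr with ⟨h1, h2⟩ | ⟨α, T⟩
  · left
    constructor
    · rw [← Nat.card_eq_fintype_card, ← Nat.card_congr e₀]
      exact h1
    · intro ω
      have h3 := card_HH (p := p) (N := N) (ω₀ := ω₀) htrans
      obtain ⟨n, -, rfl⟩ := htrans ω₀ ω
      rw [MulAction.stabilizer_smul_eq_stabilizer_map_conj,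
        Subgroup.card_map_of_injective (MulAut.conj n).injective, ← h3]
      exact h2
  · right
    obtain ⟨D, _, hF, _, ι, σ, K₀, hσσ, hnotid, hcardD, hK₀card, hK₀pow, h1, h2, h3⟩ :=
      top_field hB T hirr
    letI : Field D := hF.toField
    let e₁ : Ω ≃ D := e₀.symm.trans ι.symm.toEquiv
    have he₁ : ∀ z, e₁ (tr N (ι z) • ω₀) = z := fun z => by
      show ι.symm (e₀.symm (e₀ (ι z))) = z
      simp
    have he₁' : ∀ ω, ∃ z, ω = tr N (ι z) • ω₀ := fun ω => by
      obtain ⟨v, rfl⟩ := e0_surj (ω₀ := ω₀) htrans ω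
      exact ⟨ι.symm v, by simp⟩
    have hinj : ∀ {a b : D}, tr N (ι a) • ω₀ = tr N (ι b) • ω₀ → a = b := fun h =>
      ι.injective (e0_inj hfree h)
    refine final1 _ D e₁ σ K₀ (p ^ α) hσσ hnotid hcardD hK₀card hK₀pow fun π => ?_
    rw [SetLike.mem_coe, range_iff (p := p) (N := N) (ω₀ := ω₀) htrans]
    constructor
    · rintro ⟨h, hh, b, hb⟩
      obtain ⟨k, hk, hcase⟩ := h1 h hh
      refine ⟨k, hk, ι.symm b, ?_⟩
      rcases hcase with hcase | hcase
      · left
        intro ω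
        obtain ⟨z, rfl⟩ := he₁' ω
        rw [hb, hcase, he₁]
        have : ι (k * z) + b = ι (k * z + ι.symm b) := by simp
        rw [this, he₁]
      · right
        intro ω
        obtain ⟨z, rfl⟩ := he₁' ω
        rw [hb, hcase, he₁]
        have : ι (k * σ z) + b = ι (k * σ z + ι.symm b) := by simp
        rw [this, he₁]
    · rintro ⟨k, hk, b, hcase | hcase⟩
      · obtain ⟨h, hh, hk'⟩ := h2 k hk
        refine ⟨h, hh, ι b, fun v => ?_⟩
        obtain ⟨z, rfl⟩ := ι.surjective v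
        have h5 := hcase (tr N (ι z) • ω₀)
        rw [he₁] at h5
        rw [hk', ← map_add, ← h5]
        obtain ⟨z', hz'⟩ := he₁' (π (tr N (ι z) • ω₀))
        rw [hz', he₁]
      · obtain ⟨h, hh, hk'⟩ := h3 k hk
        refine ⟨h, hh, ι b, fun v => ?_⟩
        obtain ⟨z, rfl⟩ := ι.surjective v
        have h5 := hcase (tr N (ι z) • ω₀)
        rw [he₁] at h5
        rw [hk', ← map_add, ← h5]
        obtain ⟨z', hz'⟩ := he₁' (π (tr N (ι z) • ω₀))
        rw [hz', he₁]

end Cfsg.Agent.AffBin
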