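import Cfsg.Agent.Lib.Classical.AffBin.Pair

/-! Binary primitive affine groups: the odd characteristic track, first part. -/

set_option autoImplicit false

namespace Cfsg.Agent.AffBin

variable {p : ℕ} [Fact p.Prime] {V : Type*} [AddCommGroup V] [Module (ZMod p) V]
variable {H : Subgroup (V ≃ₗ[ZMod p] V)}

section card
variable [Fintype V] [DecidableEq V]

lemma card_mem (A : Submodule (ZMod p) V) [DecidablePred (· ∈ A)] :
    (Finset.univ.filter (· ∈ A)).card = p ^ Module.finrank (ZMod p) A := by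
  haveI : Module.Finite (ZMod p) V := Module.Finite.of_finite
  have h1 : (Finset.univ.filter (· ∈ A)).card = Nat.card A := by
    rw [Nat.card_eq_fintype_card, Fintype.card_subtype]
  rw [h1, Module.natCard_eq_pow_finrank (K := ZMod p) (V := A), Nat.card_zmod]

lemma card_mem_ne (A : Submodule (ZMod p) V) [DecidablePred (· ∈ A)] :
    (Finset.univ.filter (fun v => v ∈ A ∧ v ≠ 0)).card = p ^ Module.finrank (ZMod p) A - 1 := by
  have h1 : Finset.univ.filter (fun v => v ∈ A ∧ v ≠ 0) = (Finset.univ.filter (· ∈ A)).erase 0 := by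
    ext v
    simp [and_comm]
  rw [h1, Finset.card_erase_of_mem (by simp [A.zero_mem]), card_mem]

end card

section Odd
variable [Finite V] (hB : BP H) (hodd : ∀ v : V, v + v = 0 → v = 0) {t t' : V ≃ₗ[ZMod p] V}

include hB hodd

/-- O1. -/
lemma cop_all {x : V ≃ₗ[ZMod p] V} (hx : x ∈ H) : Fx x ⊓ Rt x = ⊥ := by
  rw [Submodule.eq_bot_iff]
  rintro u ⟨h1, h2⟩
  obtain ⟨v, rfl⟩ := mem_Rt.1 h2
  have h1' := mem_Fx.1 h1
  set u := x v - v with hu
  have hxv : x v = v + u := by rw [hu]; abel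
  obtain ⟨m, hm⟩ := exists_isM hB (y := v) (u := u) ⟨x, hx, hxv⟩
  have h3 := hm.fix_of hx hxv h1'
  rw [hm.apply_u] at h3
  apply hodd
  have : u + u = u - (-u) := by abel
  rw [this, h3, sub_self]

lemma IsRefl.compl (ht : IsRefl H t) : IsCompl (Fx t) (Rt t) :=
  isCompl_of_inf_bot (cop_all hB hodd ht.mem)

lemma mkPair (ht : IsRefl H t) (ht' : IsRefl H t') (hnc : t * t' ≠ t' * t) : Pair H t t' :=
  ⟨ht, ht', hnc, cop_all hB hodd (H.mul_mem ht.mem ht'.mem)⟩

lemma no_p_torsion {x : V ≃ₗ[ZMod p] V} (hx : x ∈ H) (hp : x ^ p = 1) : x = 1 := by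
  classical
  have hp' := (Fact.out : p.Prime)
  rcases subsingleton_or_nontrivial V with hV | hV
  · exact gl_ext fun v => Subsingleton.elim _ _
  haveI : CharP (Module.End (ZMod p) V) p :=
    charP_of_injective_algebraMap (algebraMap (ZMod p) (Module.End (ZMod p) V)).injective p
  set n : Module.End (ZMod p) V := (x : V →ₗ[ZMod p] V) - 1 with hn
  have hpow : ∀ k : ℕ, ((x : V →ₗ[ZMod p] V) : Module.End (ZMod p) V) ^ k = ((x ^ k : V ≃ₗ[ZMod p] V) : V →ₗ[ZMod p] V) := by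
    intro k
    induction k with
    | zero => rfl
    | succ k ih =>
      rw [pow_succ, pow_succ, ih]
      rfl
  have h1 : n ^ p = 0 := by
    rw [hn, sub_pow_char_of_commute p (Commute.one_right _), one_pow, hpow, hp]
    exact sub_self _
  have hcop := cop_all hB hodd hx
  have hstep : ∀ k : ℕ, n ^ (k + 1) = 0 → n = 0 := by
    intro k
    induction k with
    | zero => simp
    | succ k ih =>
      intro h
      apply ih
      ext v
      have hnapp : ∀ w, n w = x w - w := fun w => by simp [hn]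
      have e1 : (n ^ (k + 1)) v = x ((n ^ k) v) - (n ^ k) v := by
        rw [pow_succ', Module.End.mul_apply, hnapp]
      have e2 : x ((n ^ (k + 1)) v) - (n ^ (k + 1)) v = 0 := by
        rw [← hnapp, ← Module.End.mul_apply, ← pow_succ', h]
        rfl
      have h2 : (n ^ (k + 1)) v ∈ Fx x ⊓ Rt x := by
        refine ⟨mem_Fx.2 (sub_eq_zero.1 e2), ?_⟩
        rw [e1]
        exact sub_mem_Rt _ _
      rw [hcop] at h2
      simpa using h2
  have h4 : n = 0 := by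
    obtain ⟨k, hk⟩ : ∃ k, p = k + 1 := ⟨p - 1, by have := hp'.pos; omega⟩
    exact hstep k (by rw [← hk]; exact h1)
  refine gl_ext fun v => ?_
  have := congrArg (fun f : Module.End (ZMod p) V => f v) h4
  simpa [hn, sub_eq_zero] using this

/-- There are non-commuting reflections. -/
lemma exists_noncomm_odd {x : V ≃ₗ[ZMod p] V} (hx : x ∈ H) (hx2 : x * x ≠ 1) (ht : IsRefl H t) :
    ∃ r r', IsRefl H r ∧ IsRefl H r' ∧ r * r' ≠ r' * r := by
  classical
  by_contra hh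
  push Not at hh
  haveI : Finite (V ≃ₗ[ZMod p] V) :=
    Finite.of_injective (fun f => (f : V → V)) DFunLike.coe_injective
  have hex : ∀ r, IsRefl H r → ∃ u, u ∈ Rt r ∧ u ≠ 0 := fun r hr => by
    obtain ⟨u, hu, hu0⟩ := Pair.exists_ne_zero_Rt hB hr
    exact ⟨u, hu, hu0⟩
  choose! c hc hc0 using hex
  let J : Finset (V ≃ₗ[ZMod p] V) := (Set.toFinite {r | IsRefl H r}).toFinset
  have hJ : ∀ r, r ∈ J ↔ IsRefl H r := fun r => by simp [J]
  obtain ⟨s, hs, -, hsv⟩ := exists_refl_fix hB hx hx2 (∑ r ∈ J, c r)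
  have h1 : s (∑ r ∈ J, c r) - ∑ r ∈ J, c r = ∑ r ∈ J, (s (c r) - c r) := by
    rw [map_sum, Finset.sum_sub_distrib]
  have h2 : ∑ r ∈ J, (s (c r) - c r) = s (c s) - c s := by
    apply Finset.sum_eq_single
    · intro r hr hne
      have hr' := (hJ r).1 hr
      have := Rt_le_Fx_of_comm hB hs hr' hne.symm (hh s r hs hr') (hc r hr')
      rw [mem_Fx.1 this, sub_self]
    · intro h
      exact absurd ((hJ s).2 hs) h
  rw [hsv, sub_self] at h1
  rw [h2] at h1
  rw [hs.apply_root hB (hc s hs)] at h1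
  apply hc0 s hs
  apply hodd
  have : c s + c s = -(-c s - c s) := by abel
  rw [this, ← h1, neg_zero]

lemma Pair.S_dim (P : Pair H t t') {s : V ≃ₗ[ZMod p] V} (hs : IsRefl H s)
    (hW : Fx t ⊓ Fx t' ≤ Fx s) :
    Module.finrank (ZMod p) (Rt s) = Module.finrank (ZMod p) (Rt t) := by
  rcases P.S_noncomm hB hs hW with h | h
  · exact (mkPair hB hodd hs P.ht h).dim hB
  · rw [P.dim hB]
    exact (mkPair hB hodd hs P.ht' h).dim hB

lemma Pair.F_inter (P : Pair H t t') {s s' : V ≃ₗ[ZMod p] V} (hs : IsRefl H s) (hs' : IsRefl H s')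
    (hW : Fx t ⊓ Fx t' ≤ Fx s) (hW' : Fx t ⊓ Fx t' ≤ Fx s') (hne : s ≠ s') :
    Fx s ⊓ Fx s' = Fx t ⊓ Fx t' := by
  symm
  refine eq_of_le_finrank (le_inf hW hW') ?_
  have h1 := P.S_dim hB hodd hs hW
  have h2 := P.S_dim hB hodd hs' hW'
  have hdW := P.dim_W hB
  have h3 := finrank_Rt_add_Fx s
  have h4 := finrank_Rt_add_Fx s'
  have h5 : Module.finrank (ZMod p) (Fx s ⊓ Fx s' : Submodule (ZMod p) V)
      + 2 * Module.finrank (ZMod p) (Rt t) = Module.finrank (ZMod p) V := by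
    by_cases hc : s * s' = s' * s
    · have hR := Rt_le_Fx_of_comm hB hs' hs hne.symm hc.symm
      have h6 : Fx s ⊔ Fx s' = ⊤ := top_le_iff.1 (by
        rw [← (hs.compl hB hodd).sup_eq_top]
        exact sup_le_sup_left hR _)
      have := finrank_inf_add h6
      omega
    · have Q := mkPair hB hodd hs hs' hc
      have := Q.dim_W hB
      omega
  omega

/-- Averaging: roots of reflections in `𝓢` lie in the plane. -/
lemma Pair.Rt_le_E (P : Pair H t t') {s : V ≃ₗ[ZMod p] V} (hs : IsRefl H s)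
    (hW : Fx t ⊓ Fx t' ≤ Fx s) : Rt s ≤ Rt t ⊔ Rt t' := by
  classical
  haveI : Finite (V ≃ₗ[ZMod p] V) :=
    Finite.of_injective (fun f => (f : V → V)) DFunLike.coe_injective
  let T : Subgroup (V ≃ₗ[ZMod p] V) :=
    { carrier := {g | g ∈ H ∧ ∀ w ∈ Fx t ⊓ Fx t', g w = w}
      mul_mem' := by
        rintro a b ⟨ha, ha'⟩ ⟨hb, hb'⟩
        exact ⟨H.mul_mem ha hb, fun w hw => by simp [hb' w hw, ha' w hw]⟩
      one_mem' := ⟨H.one_mem, fun _ _ => rfl⟩
      inv_mem' := by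
        rintro a ⟨ha, ha'⟩
        refine ⟨H.inv_mem ha, fun w hw => ?_⟩
        conv_lhs => rw [← ha' w hw]
        simp }
  haveI : Fintype T := Fintype.ofFinite _
  let π : V →ₗ[ZMod p] V := ∑ g : T, (g.1 : V →ₗ[ZMod p] V)
  have hπ : ∀ v, π v = ∑ g : T, g.1 v := by
    intro v
    simp [π, LinearMap.sum_apply]
  have hinv : ∀ g₀ ∈ T, ∀ v, π (g₀ v) = π v := by
    intro g₀ hg₀ v
    rw [hπ, hπ]
    exact Fintype.sum_equiv (Equiv.mulRight (⟨g₀, hg₀⟩ : T)) _ _ (fun g => rfl)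
  have hker : ∀ g₀ ∈ T, Rt g₀ ≤ LinearMap.ker π := by
    intro g₀ hg₀ u hu
    obtain ⟨y, rfl⟩ := mem_Rt.1 hu
    rw [LinearMap.mem_ker, map_sub, hinv g₀ hg₀, sub_self]
  have hW' : ∀ w ∈ Fx t ⊓ Fx t', π w = (Fintype.card T : ZMod p) • w := by
    intro w hw
    rw [hπ, Finset.sum_congr rfl (fun g _ => g.2.2 w hw), Finset.sum_const, Finset.card_univ,
      Nat.cast_smul_eq_nsmul]
  have hcardT : (Fintype.card T : ZMod p) ≠ 0 := by
    intro h
    rw [ZMod.natCast_eq_zero_iff] at h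
    obtain ⟨g, hg⟩ := exists_prime_orderOf_dvd_card p h
    have hg1 : g ^ p = 1 := orderOf_dvd_iff_pow_eq_one.1 (dvd_of_eq hg)
    have hg2 : g.1 ^ p = 1 := by
      have := congrArg Subtype.val hg1
      simpa using this
    have hg3 := no_p_torsion hB hodd g.2.1 hg2
    have hg4 : g = 1 := Subtype.ext hg3
    rw [hg4, orderOf_one] at hg
    exact (Fact.out : p.Prime).one_lt.ne hg
  have hmemT : ∀ {g : V ≃ₗ[ZMod p] V}, IsRefl H g → Fx t ⊓ Fx t' ≤ Fx g → g ∈ T :=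
    fun hg hgW => ⟨hg.mem, fun w hw => mem_Fx.1 (hgW hw)⟩
  have hEk : Rt t ⊔ Rt t' ≤ LinearMap.ker π := sup_le
    (hker t (hmemT P.ht inf_le_left)) (hker t' (hmemT P.ht' inf_le_right))
  intro z hz
  have hzk : π z = 0 := hker s (hmemT hs hW) hz
  have hz' : z ∈ (Fx t ⊓ Fx t') ⊔ (Rt t ⊔ Rt t') := by
    rw [(P.compl hB).sup_eq_top]
    trivial
  obtain ⟨w, hw, e, he, rfl⟩ := Submodule.mem_sup.1 hz'
  rw [map_add, hW' w hw, LinearMap.mem_ker.1 (hEk he), add_zero] at hzk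
  have hw0 : w = 0 := by
    rcases smul_eq_zero.1 hzk with h | h
    · exact absurd h hcardT
    · exact h
  rw [hw0, zero_add]
  exact he

/-- The plane lemma: all nonzero vectors of the plane are roots. -/
lemma Pair.plane (P : Pair H t t') {e : V} (he : e ∈ Rt t ⊔ Rt t') (he0 : e ≠ 0) :
    ∃ s, IsRefl H s ∧ Fx t ⊓ Fx t' ≤ Fx s ∧ e ∈ Rt s := by
  classical
  haveI : Fintype V := Fintype.ofFinite V
  haveI : Finite (V ≃ₗ[ZMod p] V) :=
    Finite.of_injective (fun f => (f : V → V)) DFunLike.coe_injective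
  let S : Finset (V ≃ₗ[ZMod p] V) := (Set.toFinite {s | IsRefl H s ∧ Fx t ⊓ Fx t' ≤ Fx s}).toFinset
  have hS : ∀ s, s ∈ S ↔ IsRefl H s ∧ Fx t ⊓ Fx t' ≤ Fx s := fun s => by simp [S]
  let A : (V ≃ₗ[ZMod p] V) → Finset V :=
    fun s => Finset.univ.filter (fun v => v ∈ Fx s ⊓ (Rt t ⊔ Rt t') ∧ v ≠ 0)
  let B : (V ≃ₗ[ZMod p] V) → Finset V := fun s => Finset.univ.filter (fun v => v ∈ Rt s ∧ v ≠ 0)
  have hdA : ∀ s ∈ S, Module.finrank (ZMod p) (Fx s ⊓ (Rt t ⊔ Rt t') : Submodule (ZMod p) V)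
      = Module.finrank (ZMod p) (Rt t) := by
    intro s hs
    obtain ⟨h1, h2⟩ := (hS s).1 hs
    have h3 := P.dim_inf hB h2
    have h4 := P.S_dim hB hodd h1 h2
    have h5 := finrank_Rt_add_Fx s
    omega
  have hcA : ∀ s ∈ S, (A s).card = p ^ Module.finrank (ZMod p) (Rt t) - 1 := by
    intro s hs
    rw [← hdA s hs]
    exact card_mem_ne _
  have hcB : ∀ s ∈ S, (B s).card = p ^ Module.finrank (ZMod p) (Rt t) - 1 := by
    intro s hs
    obtain ⟨h1, h2⟩ := (hS s).1 hs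
    rw [← P.S_dim hB hodd h1 h2]
    exact card_mem_ne _
  have hpA : (S : Set (V ≃ₗ[ZMod p] V)).PairwiseDisjoint A := by
    intro s hs s' hs' hne
    obtain ⟨h1, h2⟩ := (hS s).1 hs
    obtain ⟨h1', h2'⟩ := (hS s').1 hs'
    rw [Function.onFun, Finset.disjoint_left]
    intro v hv hv'
    simp only [A, Finset.mem_filter, Finset.mem_univ, true_and] at hv hv'
    have h3 : v ∈ Fx s ⊓ Fx s' := ⟨hv.1.1, hv'.1.1⟩
    rw [P.F_inter hB hodd h1 h1' h2 h2' hne] at h3
    have h4 : v ∈ (Fx t ⊓ Fx t') ⊓ (Rt t ⊔ Rt t') := ⟨h3, hv.1.2⟩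
    rw [(P.compl hB).inf_eq_bot] at h4
    exact hv.2 (by simpa using h4)
  have hpB : (S : Set (V ≃ₗ[ZMod p] V)).PairwiseDisjoint B := by
    intro s hs s' hs' hne
    obtain ⟨h1, h2⟩ := (hS s).1 hs
    obtain ⟨h1', h2'⟩ := (hS s').1 hs'
    rw [Function.onFun, Finset.disjoint_left]
    intro v hv hv'
    simp only [B, Finset.mem_filter, Finset.mem_univ, true_and] at hv hv'
    exact hne (root_uniq hB h1 h1' hv.2 hv.1 hv'.1)
  let U : Finset V := Finset.univ.filter (fun v => v ∈ Rt t ⊔ Rt t' ∧ v ≠ 0)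
  have hUA : S.biUnion A = U := by
    ext v
    simp only [Finset.mem_biUnion, A, U, Finset.mem_filter, Finset.mem_univ, true_and]
    constructor
    · rintro ⟨s, -, h1, h2⟩
      exact ⟨h1.2, h2⟩
    · rintro ⟨h1, h2⟩
      obtain ⟨s, hs, hsW, hsv⟩ := P.exists_S hB v
      exact ⟨s, (hS s).2 ⟨hs, hsW⟩, ⟨mem_Fx.2 hsv, h1⟩, h2⟩
  have hUB : S.biUnion B ⊆ U := by
    intro v hv
    simp only [Finset.mem_biUnion, B, U, Finset.mem_filter, Finset.mem_univ, true_and] at hv ⊢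
    obtain ⟨s, hs, h1, h2⟩ := hv
    obtain ⟨h3, h4⟩ := (hS s).1 hs
    exact ⟨P.Rt_le_E hB hodd h3 h4 h1, h2⟩
  have hcard : U.card ≤ (S.biUnion B).card := by
    rw [← hUA, Finset.card_biUnion hpA, Finset.card_biUnion hpB]
    exact le_of_eq (Finset.sum_congr rfl fun s hs => by rw [hcA s hs, hcB s hs])
  have heq := Finset.eq_of_subset_of_card_le hUB hcard
  have heU : e ∈ U := by
    simp only [U, Finset.mem_filter, Finset.mem_univ, true_and]
    exact ⟨he, he0⟩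
  rw [← heq] at heU
  simp only [Finset.mem_biUnion, B, Finset.mem_filter, Finset.mem_univ, true_and] at heU
  obtain ⟨s, hs, h1, -⟩ := heU
  obtain ⟨h3, h4⟩ := (hS s).1 hs
  exact ⟨s, h3, h4, h1⟩

/-- The plane lemma for non-commuting reflections, in usable form. -/
lemma plane' {a b : V ≃ₗ[ZMod p] V} (ha : IsRefl H a) (hb : IsRefl H b) (hnc : a * b ≠ b * a)
    {e : V} (he : e ∈ Rt a ⊔ Rt b) (he0 : e ≠ 0) :
    ∃ s, IsRefl H s ∧ Fx a ⊓ Fx b ≤ Fx s ∧ e ∈ Rt s ∧ Rt s ≤ Rt a ⊔ Rt b ∧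
      Module.finrank (ZMod p) (Rt s) = Module.finrank (ZMod p) (Rt a) := by
  have P := mkPair hB hodd ha hb hnc
  obtain ⟨s, hs, h1, h2⟩ := P.plane hB hodd he he0
  exact ⟨s, hs, h1, h2, P.Rt_le_E hB hodd hs h1, P.S_dim hB hodd hs h1⟩

end Odd

end Cfsg.Agent.AffBin
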