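import Cfsg.Agent.Lib.Classical.AffBin.Odd

/-! Binary primitive affine groups: the odd characteristic track, second part. -/

set_option autoImplicit false

namespace Cfsg.Agent.AffBin

variable {p : ℕ} [Fact p.Prime] {V : Type*} [AddCommGroup V] [Module (ZMod p) V]
variable {H : Subgroup (V ≃ₗ[ZMod p] V)}

section Odd
variable [Finite V] (hB : BP H) (hodd : ∀ v : V, v + v = 0 → v = 0) {t t' : V ≃ₗ[ZMod p] V}

include hB hodd

/-- Symmetry of orthogonality among roots. -/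
lemma fix_symm {a b : V ≃ₗ[ZMod p] V} (ha : IsRefl H a) (hb : IsRefl H b) {y u : V}
    (hy : y ∈ Rt a) (hy0 : y ≠ 0) (hu : u ∈ Rt b) (hby : b y = y) : a u = u := by
  have hc := comm_of_fix_root hB ha hy hy0 hb.mem hby
  have hne : a ≠ b := by
    rintro rfl
    rw [ha.apply_root hB hy] at hby
    apply hy0
    apply hodd
    nth_rewrite 1 [← hby]
    abel
  exact mem_Fx.1 (Rt_le_Fx_of_comm hB ha hb hne hc.symm hu)

/-- The count in the three-dimensional space `M`. -/
lemma count_contra {M : Submodule (ZMod p) V} {α : ℕ} (hα : 0 < α)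
    (hM : Module.finrank (ZMod p) M = 3 * α)
    (hG : ∀ y ∈ M, y ≠ 0 → ∃ g, IsRefl H g ∧ y ∈ Rt g ∧ Rt g ≤ M ∧
      Module.finrank (ZMod p) (Rt g) = α) : False := by
  classical
  haveI : Fintype V := Fintype.ofFinite V
  choose! g hg1 hg2 hg3 hg4 using hG
  set q := p ^ α with hq
  have hp2 := (Fact.out : p.Prime).two_le
  have hq2 : 2 ≤ q := le_trans hp2 (Nat.le_self_pow hα.ne' p)
  have hq3 : p ^ (3 * α) = q ^ 3 := by rw [hq, ← pow_mul, mul_comm]
  have hq' : p ^ (2 * α) = q ^ 2 := by rw [hq, ← pow_mul, mul_comm]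
  let A : V → Finset V := fun y => Finset.univ.filter (fun z => z ∈ M ∧ Rel H y z)
  have hAcard : ∀ y ∈ M, y ≠ 0 → (A y).card = q ^ 2 + 1 := by
    intro y hy hy0
    have hs := hg1 y hy hy0
    let Q : Submodule (ZMod p) V := Fx (g y) ⊓ M
    have hQdim : Module.finrank (ZMod p) Q = 2 * α := by
      have h1 : Fx (g y) ⊔ M = ⊤ := top_le_iff.1 (by
        rw [← (hs.compl hB hodd).sup_eq_top]
        exact sup_le_sup_left (hg3 y hy hy0) _)
      have h2 := finrank_inf_add h1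
      have h3 := finrank_Rt_add_Fx (g y)
      have h4 := hg4 y hy hy0
      simp only [Q]
      omega
    let D : Finset V := Finset.univ.filter (fun u => u ∈ M ∧ u ∉ Q)
    have hDcard : D.card = q ^ 3 - q ^ 2 := by
      have h1 : D = (Finset.univ.filter (· ∈ M)) \ (Finset.univ.filter (· ∈ Q)) := by
        ext v
        simp [D]
      rw [h1, Finset.card_sdiff_of_subset, card_mem, card_mem, hM, hQdim, hq3, hq']
      intro v hv
      simp only [Finset.mem_filter, Finset.mem_univ, true_and] at hv ⊢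
      exact hv.2
    let T : Finset V := (A y).erase y
    have hΦ : ∀ u ∈ D, (g u) y ∈ T := by
      intro u hu
      simp only [D, Finset.mem_filter, Finset.mem_univ, true_and] at hu
      obtain ⟨hu1, hu2⟩ := hu
      have hu0 : u ≠ 0 := by
        rintro rfl
        exact hu2 (Q.zero_mem)
      have hgu := hg1 u hu1 hu0
      have hne : (g u) y ≠ y := by
        intro h
        exact hu2 ⟨mem_Fx.2 (fix_symm hB hodd hs hgu (hg2 y hy hy0) hy0 (hg2 u hu1 hu0) h), hu1⟩
      simp only [T, A, Finset.mem_erase, Finset.mem_filter, Finset.mem_univ, true_and]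
      refine ⟨hne, ?_, Rel.of_mem hgu.mem y⟩
      have h3 : (g u) y = y + ((g u) y - y) := by abel
      rw [h3]
      exact M.add_mem hy (hg3 u hu1 hu0 (sub_mem_Rt _ _))
    have hfib : ∀ z ∈ T, (D.filter (fun u => (g u) y = z)).card = q - 1 := by
      intro z hz
      simp only [T, A, Finset.mem_erase, Finset.mem_filter, Finset.mem_univ, true_and] at hz
      obtain ⟨hzy, hzM, hzR⟩ := hz
      set w := z - y with hw
      have hwM : w ∈ M := M.sub_mem hzM hy
      have hw0 : w ≠ 0 := sub_ne_zero.2 hzy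
      have hh := hg1 w hwM hw0
      obtain ⟨x, hx, hxz⟩ := hzR
      have hyz : z = y + w := by rw [hw]; abel
      have hhy : (g w) y = z := by
        have := (hh.of_eq hB hx (hg2 w hwM hw0) hw0 (z := y) (by rw [hxz, hyz])).1
        rw [this, hxz]
      have hfibeq : D.filter (fun u => (g u) y = z) =
          Finset.univ.filter (fun u => u ∈ Rt (g w) ∧ u ≠ 0) := by
        ext u
        simp only [D, Finset.mem_filter, Finset.mem_univ, true_and]
        constructor
        · rintro ⟨⟨hu1, hu2⟩, hu3⟩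
          have hu0 : u ≠ 0 := by
            rintro rfl
            exact hu2 (Q.zero_mem)
          have hgu := hg1 u hu1 hu0
          have h1 : w ∈ Rt (g u) := by
            rw [hw, ← hu3]
            exact sub_mem_Rt _ _
          have h2 := root_uniq hB hgu hh hw0 h1 (hg2 w hwM hw0)
          rw [← h2]
          exact ⟨hg2 u hu1 hu0, hu0⟩
        · rintro ⟨hu1, hu0⟩
          have huM : u ∈ M := hg3 w hwM hw0 hu1
          have h2 := root_uniq hB (hg1 u huM hu0) hh hu0 (hg2 u huM hu0) hu1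
          have hu3 : (g u) y = z := by rw [h2, hhy]
          refine ⟨⟨huM, ?_⟩, hu3⟩
          intro hQ
          apply hzy
          rw [← hu3]
          exact fix_symm hB hodd (hg1 u huM hu0) hs (hg2 u huM hu0) hu0 (hg2 y hy hy0)
            (mem_Fx.1 hQ.1)
      rw [hfibeq, card_mem_ne, hg4 w hwM hw0]
    have h1 := Finset.card_eq_sum_card_fiberwise (s := D) (t := T) (f := fun u => (g u) y) hΦ
    rw [Finset.sum_congr rfl hfib, Finset.sum_const, smul_eq_mul, hDcard] at h1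
    have hTq : T.card = q ^ 2 := by
      have h2 : q ^ 3 - q ^ 2 = q ^ 2 * (q - 1) := by
        rw [Nat.mul_sub, mul_one]
        ring_nf
      rw [h2] at h1
      exact (Nat.eq_of_mul_eq_mul_right (by omega) h1).symm
    have hyA : y ∈ A y := by
      simp only [A, Finset.mem_filter, Finset.mem_univ, true_and]
      exact ⟨hy, Rel.refl y⟩
    have h3 := Finset.card_erase_add_one hyA
    rw [← h3]
    simp only [T] at hTq
    rw [hTq]
  let X : Finset V := Finset.univ.filter (fun v => v ∈ M ∧ v ≠ 0)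
  have hXcard : X.card = q ^ 3 - 1 := by
    simp only [X]
    rw [card_mem_ne, hM, hq3]
  have hsum := Finset.card_eq_sum_card_image A X
  have hfibX : ∀ c ∈ X.image A, (X.filter (fun a => A a = c)).card = q ^ 2 + 1 := by
    intro c hc
    obtain ⟨y, hy, rfl⟩ := Finset.mem_image.1 hc
    simp only [X, Finset.mem_filter, Finset.mem_univ, true_and] at hy
    rw [← hAcard y hy.1 hy.2]
    congr 1
    ext a
    simp only [X, A, Finset.mem_filter, Finset.mem_univ, true_and]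
    constructor
    · rintro ⟨⟨ha1, ha0⟩, ha⟩
      have h2 : a ∈ A a := by
        simp only [A, Finset.mem_filter, Finset.mem_univ, true_and]
        exact ⟨ha1, Rel.refl a⟩
      have ha' : A a = A y := ha
      rw [ha'] at h2
      simpa only [A, Finset.mem_filter, Finset.mem_univ, true_and] using h2
    · rintro ⟨ha1, ha2⟩
      have ha0 : a ≠ 0 := by
        rintro rfl
        exact hy.2 (Rel.zero_left ha2.symm)
      refine ⟨⟨ha1, ha0⟩, ?_⟩
      ext z
      simp only [A, Finset.mem_filter, Finset.mem_univ, true_and]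
      exact ⟨fun h => ⟨h.1, ha2.trans h.2⟩, fun h => ⟨h.1, ha2.symm.trans h.2⟩⟩
  rw [Finset.sum_congr rfl hfibX, Finset.sum_const, smul_eq_mul, hXcard] at hsum
  have hd1 : (q ^ 2 + 1) ∣ q ^ 3 - 1 := ⟨_, by rw [hsum, mul_comm]⟩
  have hd2 : (q ^ 2 + 1) ∣ q * (q ^ 2 + 1) := dvd_mul_left _ _
  have hpos : 1 ≤ q ^ 3 := Nat.one_le_pow _ _ (by omega)
  have h3 : q * (q ^ 2 + 1) = (q ^ 3 - 1) + (q + 1) := by
    have : q * (q ^ 2 + 1) = q ^ 3 + q := by ring
    omega
  rw [h3] at hd2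
  have hd3 := (Nat.dvd_add_right hd1).1 hd2
  have h4 := Nat.le_of_dvd (by omega) hd3
  nlinarith

/-- A reflection outside `𝓢` commutes with all of `𝓢`. -/
lemma no_third (P : Pair H t t') {r s₁ : V ≃ₗ[ZMod p] V} (hr : IsRefl H r)
    (hrW : ¬ (Fx t ⊓ Fx t' ≤ Fx r)) (hs₁ : IsRefl H s₁) (hs₁W : Fx t ⊓ Fx t' ≤ Fx s₁)
    (hnc : r * s₁ ≠ s₁ * r) : False := by
  classical
  set W := Fx t ⊓ Fx t' with hWdef
  set E := Rt t ⊔ Rt t' with hEdef
  set α := Module.finrank (ZMod p) (Rt t) with hαdef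
  have hα0 : 0 < α := finrank_Rt_pos hB P.ht
  have hPE : ∀ e ∈ E, e ≠ 0 → ∃ s, IsRefl H s ∧ W ≤ Fx s ∧ e ∈ Rt s ∧ Rt s ≤ E ∧
      Module.finrank (ZMod p) (Rt s) = α := by
    intro e he he0
    obtain ⟨s, hs, h1, h2⟩ := P.plane hB hodd he he0
    exact ⟨s, hs, h1, h2, P.Rt_le_E hB hodd hs h1, P.S_dim hB hodd hs h1⟩
  have hrα : Module.finrank (ZMod p) (Rt r) = α := by
    rw [(mkPair hB hodd hr hs₁ hnc).dim hB]
    exact P.S_dim hB hodd hs₁ hs₁W
  have hdE : Module.finrank (ZMod p) E = 2 * α := P.dim_E hB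
  have hdW := P.dim_W hB
  have hFr := finrank_Rt_add_Fx r
  have hEFr : 0 < Module.finrank (ZMod p) (E ⊓ Fx r : Submodule (ZMod p) V) := by
    haveI : Module.Finite (ZMod p) V := Module.Finite.of_finite
    have h1 := Submodule.finrank_sup_add_finrank_inf_eq E (Fx r)
    have h2 := finrank_le_V (E ⊔ Fx r)
    omega
  obtain ⟨a₁, ha₁, ha₁0⟩ := exists_ne_zero_of_finrank_pos hEFr
  obtain ⟨s₀, hs₀, hs₀W, ha₁R, hs₀E, hs₀α⟩ := hPE a₁ ha₁.1 ha₁0
  have hcomm0 : r * s₀ = s₀ * r := comm_of_fix_root hB hs₀ ha₁R ha₁0 hr.mem (mem_Fx.1 ha₁.2)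
  have hner : ∀ σ, W ≤ Fx σ → σ ≠ r := by
    rintro σ hσ rfl
    exact hrW hσ
  have huniq : ∀ σ, IsRefl H σ → W ≤ Fx σ → r * σ = σ * r → σ = s₀ := by
    intro σ hσ hσW hc
    by_contra hne'
    have hR1 := Rt_le_Fx_of_comm hB hr hσ (hner σ hσW).symm hc
    have hR2 := Rt_le_Fx_of_comm hB hr hs₀ (hner s₀ hs₀W).symm hcomm0
    have hσE := P.Rt_le_E hB hodd hσ hσW
    have hσα := P.S_dim hB hodd hσ hσW
    have h3 : Rt σ ⊔ Rt s₀ = E := by
      refine eq_of_le_finrank (sup_le hσE hs₀E) ?_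
      rw [finrank_sup_of_inf_bot (inf_Rt_eq_bot hB hσ hs₀ hne')]
      omega
    have h4 : E ≤ Fx r := by
      rw [← h3]
      exact sup_le hR1 hR2
    apply hnc
    obtain ⟨u, hu, hu0⟩ := Pair.exists_ne_zero_Rt hB hs₁
    exact comm_of_fix_root hB hs₁ hu hu0 hr.mem
      (mem_Fx.1 (h4 (P.Rt_le_E hB hodd hs₁ hs₁W hu)))
  have hdisj : E ⊓ Rt r = ⊥ := by
    rw [Submodule.eq_bot_iff]
    intro v hv
    by_contra h0
    obtain ⟨σ, hσ, hσW, hvσ, -, -⟩ := hPE v hv.1 h0
    exact hner σ hσW (root_uniq hB hσ hr h0 hvσ hv.2)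
  set M := E ⊔ Rt r with hMdef
  have hdM : Module.finrank (ZMod p) M = 3 * α := by
    rw [hMdef, finrank_sup_of_inf_bot hdisj]
    omega
  have hEM : E ≤ M := le_sup_left
  have hrM : Rt r ≤ M := le_sup_right
  have hy0 : ∀ e ∈ E, ∀ b ∈ Rt r, b ≠ 0 → e + b ≠ 0 := by
    intro e he b hb hb0 h
    have h1 : b = -e := eq_neg_of_add_eq_zero_right h
    have h2 : b ∈ E ⊓ Rt r := ⟨by rw [h1]; exact E.neg_mem he, hb⟩
    rw [hdisj] at h2
    exact hb0 (by simpa using h2)
  have h3 : ∀ e ∈ E, e ∉ Rt s₀ → e ≠ 0 → ∀ b ∈ Rt r, b ≠ 0 →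
      ∃ g, IsRefl H g ∧ e + b ∈ Rt g ∧ Rt g ≤ M ∧ Module.finrank (ZMod p) (Rt g) = α := by
    intro e he hes0 he0 b hb hb0
    obtain ⟨σ, hσ, hσW, heσ, hσE, hσα⟩ := hPE e he he0
    have hσs₀ : σ ≠ s₀ := by
      rintro rfl
      exact hes0 heσ
    have hnc' : σ * r ≠ r * σ := fun hc => hσs₀ (huniq σ hσ hσW hc.symm)
    obtain ⟨g, hg, -, hyg, hgle, hgα⟩ := plane' hB hodd hσ hr hnc'
      (Submodule.add_mem_sup heσ hb) (hy0 e he b hb hb0)
    exact ⟨g, hg, hyg, hgle.trans (sup_le_sup_right hσE _), hgα.trans hσα⟩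
  have h4 : ∀ e ∈ Rt s₀, e ≠ 0 → ∀ b ∈ Rt r, b ≠ 0 →
      ∃ g, IsRefl H g ∧ e + b ∈ Rt g ∧ Rt g ≤ M ∧ Module.finrank (ZMod p) (Rt g) = α := by
    intro e he he0 b hb hb0
    obtain ⟨s₂, hs₂, hs₂W, hs₂ne⟩ : ∃ s₂, IsRefl H s₂ ∧ W ≤ Fx s₂ ∧ s₂ ≠ s₀ := by
      by_cases hts : t = s₀
      · refine ⟨t', P.ht', inf_le_right, ?_⟩
        rw [← hts]
        exact (ne_of_noncomm P.hnc).symm
      · exact ⟨t, P.ht, inf_le_left, hts⟩
    obtain ⟨c, hc, hc0⟩ := Pair.exists_ne_zero_Rt hB hs₂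
    have hs₂E := P.Rt_le_E hB hodd hs₂ hs₂W
    have heE := hs₀E he
    have hy00 := hy0 e heE b hb hb0
    have key : ∀ c' ∈ Rt s₂, c' ≠ 0 →
        (∃ g, IsRefl H g ∧ e + b ∈ Rt g ∧ Rt g ≤ M ∧ Module.finrank (ZMod p) (Rt g) = α) ∨
          s₂ (e + b) - (e + b) = c' + c' := by
      intro c' hc' hc'0
      have h5 : e + c' ∉ Rt s₀ := by
        intro h
        have h6 : c' ∈ Rt s₀ := by
          have := Submodule.sub_mem _ h he
          simpa using this
        exact hs₂ne (root_uniq hB hs₂ hs₀ hc'0 hc' h6)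
      have h6 : e + c' ≠ 0 := by
        intro h
        rw [h] at h5
        exact h5 (Submodule.zero_mem _)
      obtain ⟨h', hh', hyh, hh'M, hh'α⟩ :=
        h3 (e + c') (E.add_mem heE (hs₂E hc')) h5 h6 b hb hb0
      have hyc : e + c' + b - c' = e + b := by abel
      by_cases hcm : h' * s₂ = s₂ * h'
      · by_cases heq : h' = s₂
        · left
          have h7 : e + b ∈ Rt s₂ := by
            rw [← hyc]
            rw [heq] at hyh
            exact Submodule.sub_mem _ hyh hc'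
          exact ⟨s₂, hs₂, h7, hs₂E.trans hEM, P.S_dim hB hodd hs₂ hs₂W⟩
        · right
          have hR := Rt_le_Fx_of_comm hB hs₂ hh' (Ne.symm heq) hcm.symm
          have h7 : s₂ (e + c' + b) = e + c' + b := mem_Fx.1 (hR hyh)
          have h8 : s₂ c' = -c' := hs₂.apply_root hB hc'
          rw [map_add, map_add, h8] at h7
          rw [map_add]
          grind
      · left
        have hmem : e + b ∈ Rt h' ⊔ Rt s₂ := by
          rw [← hyc]
          exact Submodule.sub_mem _ (Submodule.mem_sup_left hyh) (Submodule.mem_sup_right hc')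
        obtain ⟨g, hg, -, hyg, hgle, hgα⟩ := plane' hB hodd hh' hs₂ hcm hmem hy00
        exact ⟨g, hg, hyg, hgle.trans (sup_le hh'M (hs₂E.trans hEM)), hgα.trans hh'α⟩
    rcases key c hc hc0 with h | h
    · exact h
    rcases key (-c) (Submodule.neg_mem _ hc) (neg_ne_zero.2 hc0) with h' | h'
    · exact h'
    exfalso
    apply hc0
    apply hodd
    apply hodd
    have e1 : c + c = -c + -c := h.symm.trans h'
    grind
  refine count_contra hB hodd hα0 hdM ?_
  intro y hy hy0'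
  obtain ⟨e, he, b, hb, rfl⟩ := Submodule.mem_sup.1 hy
  by_cases hb0 : b = 0
  · subst hb0
    rw [add_zero] at hy0' ⊢
    obtain ⟨s, hs, -, h2, h5, h6⟩ := hPE e he hy0'
    exact ⟨s, hs, h2, h5.trans hEM, h6⟩
  by_cases he0 : e = 0
  · subst he0
    rw [zero_add]
    exact ⟨r, hr, hb, hrM, hrα⟩
  by_cases hes : e ∈ Rt s₀
  · exact h4 e hes he0 b hb hb0
  · exact h3 e he hes he0 b hb hb0

omit hB in
lemma exists_half (v : V) : ∃ h : V, h + h = v := by
  have hinj : Function.Injective (fun a : V => a + a) := by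
    intro a b hab
    have h1 : (a - b) + (a - b) = 0 := by
      simp only at hab
      grind
    exact sub_eq_zero.1 (hodd _ h1)
  exact (Finite.injective_iff_surjective.1 hinj) v

omit hB hodd [Finite V] in
lemma conj_comm_cancel {m a b : V ≃ₗ[ZMod p] V}
    (h : (m * a * m⁻¹) * (m * b * m⁻¹) = (m * b * m⁻¹) * (m * a * m⁻¹)) : a * b = b * a := by
  have e1 : (m * a * m⁻¹) * (m * b * m⁻¹) = m * (a * b) * m⁻¹ := by group
  have e2 : (m * b * m⁻¹) * (m * a * m⁻¹) = m * (b * a) * m⁻¹ := by group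
  rw [e1, e2] at h
  exact mul_left_cancel (mul_right_cancel h)

/-- The plane is everything. -/
lemma E_top (hirr : Irr H) (P : Pair H t t') : Rt t ⊔ Rt t' = ⊤ := by
  classical
  set W := Fx t ⊓ Fx t' with hWdef
  set E := Rt t ⊔ Rt t' with hEdef
  set α := Module.finrank (ZMod p) (Rt t) with hαdef
  by_contra hne
  obtain ⟨g, hg, y, hy, hy'⟩ : ∃ g ∈ H, ∃ y ∈ E, g y ∉ E := by
    by_contra hh
    push Not at hh
    rcases hirr E hh with h0 | h0
    · obtain ⟨u, hu, hu0⟩ := Pair.exists_ne_zero_Rt hB P.ht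
      have : u ∈ E := Submodule.mem_sup_left hu
      rw [h0] at this
      exact hu0 (by simpa using this)
    · exact hne h0
  have hy0 : y ≠ 0 := by
    rintro rfl
    rw [map_zero] at hy'
    exact hy' E.zero_mem
  obtain ⟨s, hs, hsW, hys⟩ := P.plane hB hodd hy hy0
  have hτ := hs.conj hB hg
  have hy'τ : g y ∈ Rt (g * s * g⁻¹) := mem_Rt_conj hys
  have hy'0 : g y ≠ 0 := (map_ne_zero_iff g g.injective).2 hy0
  have hτW : ¬ (W ≤ Fx (g * s * g⁻¹)) := fun h => hy' (P.Rt_le_E hB hodd hτ h hy'τ)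
  have hcomm : ∀ s', IsRefl H s' → W ≤ Fx s' → (g * s * g⁻¹) * s' = s' * (g * s * g⁻¹) := by
    intro s' hs' hs'W
    by_contra hnc
    exact no_third hB hodd P hτ hτW hs' hs'W hnc
  have hτne : ∀ s', W ≤ Fx s' → s' ≠ g * s * g⁻¹ := by
    rintro s' hs'W rfl
    exact hτW hs'W
  have hEF : E ≤ Fx (g * s * g⁻¹) := sup_le
    (Rt_le_Fx_of_comm hB hτ P.ht (hτne t inf_le_left).symm (hcomm t P.ht inf_le_left))
    (Rt_le_Fx_of_comm hB hτ P.ht' (hτne t' inf_le_right).symm (hcomm t' P.ht' inf_le_right))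
  obtain ⟨m, hm, hm1, hm2, hm3⟩ := exists_equid hB (Rel.of_mem hg y)
  have hm1R : g y ∈ Rt (m * s * m⁻¹) := by
    rw [← hm1]
    exact mem_Rt_conj hys
  have hm2R : y ∈ Rt (m * (g * s * g⁻¹) * m⁻¹) := by
    have := mem_Rt_conj (g := m) hy'τ
    rwa [hm2] at this
  have e1 : m * s * m⁻¹ = g * s * g⁻¹ := root_uniq hB (hs.conj hB hm) hτ hy'0 hm1R hy'τ
  have e2 : m * (g * s * g⁻¹) * m⁻¹ = s := root_uniq hB (hτ.conj hB hm) hs hy0 hm2R hys
  set τ := g * s * g⁻¹ with hτdef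
  set y' := g y with hy'def
  have hsy : s y = -y := hs.apply_root hB hys
  have hτy' : τ y' = -y' := hτ.apply_root hB hy'τ
  have hτy : τ y = y := mem_Fx.1 (hEF hy)
  have hsy' : s y' = y' := mem_Fx.1 (Rt_le_Fx_of_comm hB hs hτ (hτne s hsW)
    (hcomm s hs hsW).symm hy'τ)
  obtain ⟨h, hh⟩ := exists_half hodd (y + y')
  have hsτH : s * τ ∈ H := H.mul_mem hs.mem hτ.mem
  have hk : (s * τ) (h - y) = -(h - y) := by
    have h1 : (s * τ) (h + h) = -(h + h) := by
      rw [hh, mul_app, map_add, map_add, hτy, hτy', map_neg, hsy, hsy']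
      abel
    have h3 : (s * τ) h = -h := by
      rw [map_add] at h1
      have h4 := hodd ((s * τ) h + h) (by grind)
      exact eq_neg_of_add_eq_zero_left h4
    have h2 : (s * τ) y = -y := by simp [hτy, hsy]
    rw [map_sub, h3, h2]
    abel
  have hfixh : m h = h := by
    rw [hm3]
    refine ⟨s * τ, hsτH, ?_⟩
    rw [hk]
    grind
  have hmc : ∀ c ∈ Fx s ⊓ E, m c = c := by
    intro c hc
    have hc1 : s c = c := mem_Fx.1 hc.1
    have hc2 : τ c = c := mem_Fx.1 (hEF hc.2)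
    have hfix : m (h + c) = h + c := by
      rw [hm3]
      refine ⟨s * τ, hsτH, ?_⟩
      have e3 : h + c - y = (h - y) + c := by abel
      rw [e3, map_add, hk]
      have e4 : (s * τ) c = c := by simp [hc1, hc2]
      rw [e4]
      grind
    rw [map_add, hfixh] at hfix
    exact add_left_cancel hfix
  have hdFs : Module.finrank (ZMod p) (Fx s ⊓ E : Submodule (ZMod p) V) = α := by
    have h1 : Module.finrank (ZMod p) (Fx s ⊓ E : Submodule (ZMod p) V)
        + Module.finrank (ZMod p) V = Module.finrank (ZMod p) (Fx s) + 2 * α := P.dim_inf hB hsW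
    have h2 : Module.finrank (ZMod p) (Rt s) = α := P.S_dim hB hodd hs hsW
    have h3 := finrank_Rt_add_Fx s
    omega
  have hα0 : 0 < α := finrank_Rt_pos hB P.ht
  obtain ⟨c, hc, hc0⟩ := exists_ne_zero_of_finrank_pos (by rw [hdFs]; exact hα0)
  have hc1 : s c = c := mem_Fx.1 hc.1
  obtain ⟨σ, hσ, hσW, hcσ⟩ := P.plane hB hodd hc.2 hc0
  have hσα := P.S_dim hB hodd hσ hσW
  have hσE := P.Rt_le_E hB hodd hσ hσW
  have hsE := P.Rt_le_E hB hodd hs hsW
  have hsα := P.S_dim hB hodd hs hsW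
  have hσs : s ≠ σ := by
    rintro rfl
    apply hc0
    apply hodd
    have := hs.apply_root hB hcσ
    rw [hc1] at this
    grind
  have hsσ : s * σ = σ * s := comm_of_fix_root hB hσ hcσ hc0 hs.mem hc1
  have hRσ := Rt_le_Fx_of_comm hB hs hσ hσs hsσ
  have hRs := Rt_le_Fx_of_comm hB hσ hs hσs.symm hsσ.symm
  have hEqσ : Rt σ = Fx s ⊓ E := by
    refine eq_of_le_finrank (le_inf hRσ hσE) ?_
    omega
  have hdFσ : Module.finrank (ZMod p) (Fx σ ⊓ E : Submodule (ZMod p) V) = α := by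
    have h1 : Module.finrank (ZMod p) (Fx σ ⊓ E : Submodule (ZMod p) V)
        + Module.finrank (ZMod p) V = Module.finrank (ZMod p) (Fx σ) + 2 * α := P.dim_inf hB hσW
    have h3 := finrank_Rt_add_Fx σ
    omega
  have hEqs : Rt s = Fx σ ⊓ E := by
    refine eq_of_le_finrank (le_inf hRs hsE) ?_
    omega
  have hmσ : m * σ = σ * m := comm_of_fix_root hB hσ hcσ hc0 hm (hmc c hc)
  have hcy0 : c + y ≠ 0 := by
    intro h0
    apply hc0
    apply hodd
    have h1 : c = -y := eq_neg_of_add_eq_zero_left h0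
    have h2 := hc1
    rw [h1, map_neg, hsy] at h2
    grind
  obtain ⟨r₁, hr₁, hr₁W, hcr₁⟩ := P.plane hB hodd (E.add_mem hc.2 hy) hcy0
  have hr₁E := P.Rt_le_E hB hodd hr₁ hr₁W
  have hr₁s : r₁ ≠ s := by
    rintro rfl
    have h1 : c ∈ Rt r₁ := by
      have := Submodule.sub_mem _ hcr₁ hys
      simpa using this
    apply hc0
    apply hodd
    have := hr₁.apply_root hB h1
    rw [hc1] at this
    grind
  have hr₁σ : r₁ ≠ σ := by
    rintro rfl
    have h1 : y ∈ Rt r₁ := by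
      have := Submodule.sub_mem _ hcr₁ hcσ
      simpa using this
    exact hσs (root_uniq hB hs hr₁ hy0 hys h1)
  have hncs : r₁ * s ≠ s * r₁ := by
    intro hcm
    have h1 := Rt_le_Fx_of_comm hB hs hr₁ hr₁s.symm hcm.symm
    have h2 : Rt r₁ ≤ Rt σ := by
      rw [hEqσ]
      exact le_inf h1 hr₁E
    obtain ⟨u, hu, hu0⟩ := Pair.exists_ne_zero_Rt hB hr₁
    exact hr₁σ (root_uniq hB hr₁ hσ hu0 hu (h2 hu))
  have hncσ : r₁ * σ ≠ σ * r₁ := by
    intro hcm
    have h1 := Rt_le_Fx_of_comm hB hσ hr₁ hr₁σ.symm hcm.symm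
    have h2 : Rt r₁ ≤ Rt s := by
      rw [hEqs]
      exact le_inf h1 hr₁E
    obtain ⟨u, hu, hu0⟩ := Pair.exists_ne_zero_Rt hB hr₁
    exact hr₁s (root_uniq hB hr₁ hs hu0 hu (h2 hu))
  have hr₂ := hr₁.conj hB hm
  have hσconj : m * σ * m⁻¹ = σ := by
    rw [hmσ, mul_assoc, mul_inv_cancel, mul_one]
  have hr₂σ : (m * r₁ * m⁻¹) * σ ≠ σ * (m * r₁ * m⁻¹) := by
    intro hcm
    apply hncσ
    apply conj_comm_cancel (m := m)
    rw [hσconj]
    exact hcm
  have hr₂W : W ≤ Fx (m * r₁ * m⁻¹) := by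
    by_contra h
    exact no_third hB hodd P hr₂ h hσ hσW hr₂σ
  have := hcomm _ hr₂ hr₂W
  apply hncs
  apply conj_comm_cancel (m := m)
  rw [e1]
  exact this.symm

/-- The output of the odd characteristic track. -/
theorem odd_top (hirr : Irr H) {x : V ≃ₗ[ZMod p] V} (hx : x ∈ H) (hx2 : x * x ≠ 1)
    (ht : IsRefl H t) : ∃ α, TopData H α := by
  obtain ⟨r, r', hr, hr', hnc⟩ := exists_noncomm_odd hB hodd hx hx2 ht
  have P := mkPair hB hodd hr hr' hnc
  have hE := E_top hB hodd hirr P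
  have hc := P.compl hB
  have hW : Fx r ⊓ Fx r' = ⊥ := by
    have := hc.inf_eq_bot
    rwa [hE, inf_top_eq] at this
  have hdW := P.dim_W hB
  rw [hW, finrank_bot] at hdW
  refine ⟨Module.finrank (ZMod p) (Rt r), finrank_Rt_pos hB hr, by omega, ?_, ?_, ?_, ?_⟩
  · intro s hs
    exact P.S_dim hB hodd hs (by rw [hW]; exact bot_le)
  · intro v hv
    obtain ⟨s, hs, -, h⟩ := P.plane hB hodd (by rw [hE]; trivial) hv
    exact ⟨s, hs, h⟩
  · intro v _
    obtain ⟨s, hs, -, hsv⟩ := P.exists_S hB v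
    exact ⟨s, hs, mem_Fx.2 hsv⟩
  · intro s s' hs hs' hne
    rw [P.F_inter hB hodd hs hs' (by rw [hW]; exact bot_le) (by rw [hW]; exact bot_le) hne, hW]

end Odd

end Cfsg.Agent.AffBin
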