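import Cfsg.Agent.Lib.Classical.AffBin.Basic

/-! Binary primitive affine groups: non-commuting pairs of reflections. -/

set_option autoImplicit false

namespace Cfsg.Agent.AffBin

variable {p : ℕ} [Fact p.Prime] {V : Type*} [AddCommGroup V] [Module (ZMod p) V]
variable {H : Subgroup (V ≃ₗ[ZMod p] V)}

/-- Irreducibility. -/
def Irr (H : Subgroup (V ≃ₗ[ZMod p] V)) : Prop :=
  ∀ W : Submodule (ZMod p) V, (∀ h ∈ H, ∀ w ∈ W, h w ∈ W) → W = ⊥ ∨ W = ⊤

section finrank
variable [Finite V]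

lemma finrank_sup_of_inf_bot {A B : Submodule (ZMod p) V} (h : A ⊓ B = ⊥) :
    Module.finrank (ZMod p) (A ⊔ B : Submodule (ZMod p) V)
      = Module.finrank (ZMod p) A + Module.finrank (ZMod p) B := by
  haveI : Module.Finite (ZMod p) V := Module.Finite.of_finite
  have := Submodule.finrank_sup_add_finrank_inf_eq A B
  rw [h, finrank_bot, add_zero] at this
  exact this

lemma finrank_inf_add {A B : Submodule (ZMod p) V} (h : A ⊔ B = ⊤) :
    Module.finrank (ZMod p) (A ⊓ B : Submodule (ZMod p) V) + Module.finrank (ZMod p) V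
      = Module.finrank (ZMod p) A + Module.finrank (ZMod p) B := by
  haveI : Module.Finite (ZMod p) V := Module.Finite.of_finite
  have := Submodule.finrank_sup_add_finrank_inf_eq A B
  rw [h, finrank_top] at this
  omega

lemma finrank_le_V (A : Submodule (ZMod p) V) :
    Module.finrank (ZMod p) A ≤ Module.finrank (ZMod p) V := by
  haveI : Module.Finite (ZMod p) V := Module.Finite.of_finite
  exact Submodule.finrank_le A

lemma finrank_mono {A B : Submodule (ZMod p) V} (h : A ≤ B) :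
    Module.finrank (ZMod p) A ≤ Module.finrank (ZMod p) B := by
  haveI : Module.Finite (ZMod p) V := Module.Finite.of_finite
  exact Submodule.finrank_mono h

lemma eq_of_le_finrank {A B : Submodule (ZMod p) V} (h : A ≤ B)
    (h' : Module.finrank (ZMod p) B ≤ Module.finrank (ZMod p) A) : A = B := by
  haveI : Module.Finite (ZMod p) V := Module.Finite.of_finite
  exact Submodule.eq_of_le_of_finrank_le h h'

lemma eq_top_of_finrank {A : Submodule (ZMod p) V}
    (h' : Module.finrank (ZMod p) V ≤ Module.finrank (ZMod p) A) : A = ⊤ := by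
  haveI : Module.Finite (ZMod p) V := Module.Finite.of_finite
  apply Submodule.eq_top_of_finrank_eq
  exact le_antisymm (Submodule.finrank_le A) h'

lemma finrank_sup_le (A B : Submodule (ZMod p) V) :
    Module.finrank (ZMod p) (A ⊔ B : Submodule (ZMod p) V) ≤
      Module.finrank (ZMod p) A + Module.finrank (ZMod p) B := by
  haveI : Module.Finite (ZMod p) V := Module.Finite.of_finite
  have := Submodule.finrank_sup_add_finrank_inf_eq A B
  omega

lemma finrank_pos_of_mem {A : Submodule (ZMod p) V} {v : V} (hv : v ∈ A) (h0 : v ≠ 0) :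
    0 < Module.finrank (ZMod p) A := by
  haveI : Module.Finite (ZMod p) V := Module.Finite.of_finite
  rw [Module.finrank_pos_iff]
  exact ⟨⟨⟨v, hv⟩, 0, fun h => h0 (congrArg Subtype.val h)⟩⟩

lemma exists_ne_zero_of_finrank_pos {A : Submodule (ZMod p) V}
    (h : 0 < Module.finrank (ZMod p) A) : ∃ v ∈ A, v ≠ 0 := by
  by_contra hh
  push Not at hh
  have : A = ⊥ := (Submodule.eq_bot_iff A).2 hh
  rw [this, finrank_bot] at h
  exact lt_irrefl _ h

lemma isCompl_of_inf_bot {x : V ≃ₗ[ZMod p] V} (h : Fx x ⊓ Rt x = ⊥) : IsCompl (Fx x) (Rt x) := by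
  have h1 := finrank_sup_of_inf_bot h
  have h2 := finrank_Rt_add_Fx x
  refine ⟨disjoint_iff.2 h, codisjoint_iff.2 (eq_top_of_finrank ?_)⟩
  omega

end finrank

/-- The degenerate case: the first alternative. -/
lemma alt_one [Finite V] [Nontrivial V] (hirr : Irr H) (h : ∀ x ∈ H, x * x = 1) :
    (Nat.card V).Prime ∧ Nat.card H ≤ 2 := by
  classical
  haveI : Module.Finite (ZMod p) V := Module.Finite.of_finite
  haveI : Fintype V := Fintype.ofFinite V
  have hcomm : ∀ x ∈ H, ∀ y ∈ H, x * y = y * x := by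
    intro x hx y hy
    have h1 := h _ (H.mul_mem hx hy)
    have h2 := h x hx
    have h3 := h y hy
    calc x * y = x * y * (x * y) * (y * x) := by
            have : x * y * (y * x) = 1 := by
              rw [mul_assoc, ← mul_assoc y y, h3, one_mul, h2]
            rw [mul_assoc (x * y), this, mul_one]
      _ = y * x := by rw [h1, one_mul]
  have hsc : ∀ x ∈ H, x = 1 ∨ ∀ v, x v = -v := by
    intro x hx
    have hinv : ∀ g ∈ H, ∀ w ∈ Fx x, g w ∈ Fx x := by
      intro g hg w hw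
      rw [mem_Fx] at hw ⊢
      have := congrArg (fun f : V ≃ₗ[ZMod p] V => f w) (hcomm x hx g hg)
      simp only [mul_app, hw] at this
      exact this
    rcases hirr _ hinv with h0 | h0
    · right
      intro v
      have h2 := h x hx
      have h3 : x v + v ∈ Fx x := by
        rw [mem_Fx, map_add]
        have := congrArg (fun f : V ≃ₗ[ZMod p] V => f v) h2
        simp only [mul_app, one_app] at this
        rw [this, add_comm]
      rw [h0, Submodule.mem_bot] at h3
      exact eq_neg_of_add_eq_zero_left h3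
    · left
      exact gl_ext fun v => by
        have : v ∈ Fx x := by rw [h0]; trivial
        simpa using this
  have hall : ∀ W : Submodule (ZMod p) V, W = ⊥ ∨ W = ⊤ := by
    intro W
    apply hirr
    intro g hg w hw
    rcases hsc g hg with rfl | h2
    · exact hw
    · rw [h2]
      exact W.neg_mem hw
  constructor
  · obtain ⟨v, hv⟩ := exists_ne (0 : V)
    have h1 : Submodule.span (ZMod p) {v} = ⊤ := by
      rcases hall (Submodule.span (ZMod p) {v}) with h0 | h0
      · exfalso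
        rw [Submodule.span_singleton_eq_bot] at h0
        exact hv h0
      · exact h0
    have h2 := finrank_span_singleton (K := ZMod p) hv
    rw [h1, finrank_top] at h2
    rw [Module.natCard_eq_pow_finrank (K := ZMod p) (V := V), h2, Nat.card_zmod, pow_one]
    exact Fact.out
  · have hsub : (H : Set (V ≃ₗ[ZMod p] V)) ⊆ {1, LinearEquiv.neg (ZMod p)} := by
      intro x hx
      rcases hsc x hx with rfl | h2
      · simp
      · right
        exact gl_ext fun v => by rw [h2]; rfl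
    haveI : Finite (V ≃ₗ[ZMod p] V) :=
      Finite.of_injective (fun f => (f : V → V)) DFunLike.coe_injective
    have h1 := Set.ncard_le_ncard hsub (Set.toFinite _)
    have h2 := Set.ncard_insert_le (1 : V ≃ₗ[ZMod p] V) {LinearEquiv.neg (ZMod p)}
    rw [Set.ncard_singleton] at h2
    have h3 : Nat.card H = Set.ncard (H : Set (V ≃ₗ[ZMod p] V)) := rfl
    omega

section Pair
variable [Finite V] (hB : BP H) {t t' : V ≃ₗ[ZMod p] V}

omit [Finite V] in
lemma ne_of_noncomm (hnc : t * t' ≠ t' * t) : t ≠ t' := by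
  rintro rfl
  exact hnc rfl

include hB

lemma mul_sq_ne_one (ht : IsRefl H t) (ht' : IsRefl H t') (hnc : t * t' ≠ t' * t) :
    (t * t') * (t * t') ≠ 1 := by
  intro h
  apply hnc
  have h1 := ht.sq hB
  have h2 := ht'.sq hB
  calc t * t' = t * t' * (t * t' * (t' * t)) := by
          have : t * t' * (t' * t) = 1 := by
            rw [mul_assoc, ← mul_assoc t' t', h2, one_mul, h1]
          rw [this, mul_one]
    _ = (t * t' * (t * t')) * (t' * t) := by group
    _ = t' * t := by rw [h, one_mul]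

lemma Rt_pres_left (ht : IsRefl H t) (ht' : IsRefl H t') {u : V} (hu : u ∈ Rt (t * t')) :
    t u ∈ Rt (t * t') := by
  obtain ⟨v, rfl⟩ := mem_Rt.1 hu
  have : t ((t * t') v - v) = -((t * t') (t' v) - t' v) := by
    simp only [mul_app, map_sub, ht.invol hB, ht'.invol hB]
    abel
  rw [this]
  exact Submodule.neg_mem _ (sub_mem_Rt _ _)

lemma Rt_pres_right (ht : IsRefl H t) (ht' : IsRefl H t') {u : V} (hu : u ∈ Rt (t * t')) :
    t' u ∈ Rt (t * t') := by
  obtain ⟨v, rfl⟩ := mem_Rt.1 hu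
  have : t' ((t * t') v - v) = -((t * t') (t' (t (t' v))) - t' (t (t' v))) := by
    simp only [mul_app, map_sub, ht.invol hB, ht'.invol hB]
    abel
  rw [this]
  exact Submodule.neg_mem _ (sub_mem_Rt _ _)

omit hB [Finite V] in
lemma Rt_mul_le : Rt (t * t') ≤ Rt t ⊔ Rt t' := by
  intro u hu
  obtain ⟨v, rfl⟩ := mem_Rt.1 hu
  have : (t * t') v - v = (t (t' v) - t' v) + (t' v - v) := by
    simp only [mul_app]
    abel
  rw [this]
  exact Submodule.add_mem_sup (sub_mem_Rt _ _) (sub_mem_Rt _ _)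

lemma Rt_mul_comm_le (ht : IsRefl H t) (ht' : IsRefl H t') : Rt (t' * t) ≤ Rt (t * t') := by
  intro u hu
  obtain ⟨v, rfl⟩ := mem_Rt.1 hu
  have : (t' * t) v - v = -((t * t') (t' (t v)) - t' (t v)) := by
    simp only [mul_app, ht.invol hB, ht'.invol hB]
    abel
  rw [this]
  exact Submodule.neg_mem _ (sub_mem_Rt _ _)

lemma dim_le_of (ht : IsRefl H t) (ht' : IsRefl H t') (hnc : t * t' ≠ t' * t)
    {E : Submodule (ZMod p) V} (h1 : Rt t ≤ E) (h2 : ∀ u ∈ E, t' u ∈ E)
    (h3 : E ≤ Rt t ⊔ Rt t') :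
    Module.finrank (ZMod p) (Rt t) ≤ Module.finrank (ZMod p) (Rt t') := by
  have ht₂ := ht.conj hB ht'.mem
  have hne : t' * t * t'⁻¹ ≠ t := by
    intro h
    rw [mul_inv_eq_iff_eq_mul] at h
    exact hnc h.symm
  have hdisj : Rt (t' * t * t'⁻¹) ⊓ Rt t = ⊥ := by
    rw [Submodule.eq_bot_iff]
    intro u hu
    by_contra h0
    exact hne (root_uniq hB ht₂ ht h0 hu.1 hu.2)
  have hle : Rt (t' * t * t'⁻¹) ≤ E := by
    intro u hu
    obtain ⟨y, rfl⟩ := mem_Rt.1 hu
    have : (t' * t * t'⁻¹) y - y = t' (t (t'⁻¹ y) - t'⁻¹ y) := by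
      simp only [map_sub, mul_app, app_inv]
    rw [this]
    exact h2 _ (h1 (sub_mem_Rt _ _))
  have h4 := finrank_sup_of_inf_bot hdisj
  have h5 := finrank_mono (sup_le hle h1)
  have h6 := finrank_mono h3
  have h7 := finrank_sup_le (Rt t) (Rt t')
  have h8 := finrank_Rt_conj (t := t) t'
  omega

omit hB [Finite V] in
/-- A non-commuting pair of reflections, with `Fix x ∩ Im (x - 1) = 0` for `x = t t'`. -/
structure Pair (H : Subgroup (V ≃ₗ[ZMod p] V)) (t t' : V ≃ₗ[ZMod p] V) : Prop where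
  ht : IsRefl H t
  ht' : IsRefl H t'
  hnc : t * t' ≠ t' * t
  hcop : Fx (t * t') ⊓ Rt (t * t') = ⊥

lemma Pair.Fx_mul (P : Pair H t t') : Fx (t * t') = Fx t ⊓ Fx t' :=
  AffBin.Fx_mul hB P.ht P.ht' (ne_of_noncomm P.hnc)

lemma Pair.Rt_le_left (P : Pair H t t') : Rt t ≤ Rt (t * t') := by
  intro u hu
  obtain ⟨y, rfl⟩ := mem_Rt.1 hu
  have hc := isCompl_of_inf_bot P.hcop
  have hy : y ∈ Fx (t * t') ⊔ Rt (t * t') := by rw [hc.sup_eq_top]; trivial
  obtain ⟨w, hw, e, he, rfl⟩ := Submodule.mem_sup.1 hy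
  have hw' : w ∈ Fx t ⊓ Fx t' := by rwa [← P.Fx_mul hB]
  have hw1 : t w = w := mem_Fx.1 hw'.1
  have : t (w + e) - (w + e) = t e - e := by
    rw [map_add, hw1]
    abel
  rw [this]
  exact Submodule.sub_mem _ (Rt_pres_left hB P.ht P.ht' he) he

lemma Pair.Rt_le_right (P : Pair H t t') : Rt t' ≤ Rt (t * t') := by
  intro u hu
  obtain ⟨y, rfl⟩ := mem_Rt.1 hu
  have hc := isCompl_of_inf_bot P.hcop
  have hy : y ∈ Fx (t * t') ⊔ Rt (t * t') := by rw [hc.sup_eq_top]; trivial
  obtain ⟨w, hw, e, he, rfl⟩ := Submodule.mem_sup.1 hy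
  have hw' : w ∈ Fx t ⊓ Fx t' := by rwa [← P.Fx_mul hB]
  have hw1 : t' w = w := mem_Fx.1 hw'.2
  have : t' (w + e) - (w + e) = t' e - e := by
    rw [map_add, hw1]
    abel
  rw [this]
  exact Submodule.sub_mem _ (Rt_pres_right hB P.ht P.ht' he) he

lemma Pair.Rt_mul (P : Pair H t t') : Rt (t * t') = Rt t ⊔ Rt t' :=
  le_antisymm Rt_mul_le (sup_le (P.Rt_le_left hB) (P.Rt_le_right hB))

lemma inf_Rt_eq_bot (ht : IsRefl H t) (ht' : IsRefl H t') (hne : t ≠ t') : Rt t ⊓ Rt t' = ⊥ := by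
  rw [Submodule.eq_bot_iff]
  intro u hu
  by_contra h0
  exact hne (root_uniq hB ht ht' h0 hu.1 hu.2)

lemma Pair.compl (P : Pair H t t') : IsCompl (Fx t ⊓ Fx t') (Rt t ⊔ Rt t') := by
  have hc := isCompl_of_inf_bot P.hcop
  rwa [P.Fx_mul hB, P.Rt_mul hB] at hc

lemma Pair.dim (P : Pair H t t') :
    Module.finrank (ZMod p) (Rt t) = Module.finrank (ZMod p) (Rt t') :=
  le_antisymm
    (dim_le_of hB P.ht P.ht' P.hnc (P.Rt_le_left hB) (fun _ hu => Rt_pres_right hB P.ht P.ht' hu)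
      Rt_mul_le)
    (dim_le_of hB P.ht' P.ht P.hnc.symm (P.Rt_le_right hB)
      (fun _ hu => Rt_pres_left hB P.ht P.ht' hu) (by rw [sup_comm]; exact Rt_mul_le))

lemma Pair.symm (P : Pair H t t') : Pair H t' t := by
  refine ⟨P.ht', P.ht, P.hnc.symm, ?_⟩
  rw [Submodule.eq_bot_iff]
  rintro u ⟨h1, h2⟩
  have h3 : u ∈ Fx (t * t') ⊓ Rt (t * t') := by
    refine ⟨?_, Rt_mul_comm_le hB P.ht P.ht' h2⟩
    rw [AffBin.Fx_mul hB P.ht' P.ht (ne_of_noncomm P.hnc).symm] at h1
    rw [P.Fx_mul hB]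
    exact ⟨h1.2, h1.1⟩
  rw [P.hcop] at h3
  simpa using h3

lemma Pair.dim_E (P : Pair H t t') :
    Module.finrank (ZMod p) (Rt t ⊔ Rt t' : Submodule (ZMod p) V)
      = 2 * Module.finrank (ZMod p) (Rt t) := by
  have h1 := finrank_sup_of_inf_bot (inf_Rt_eq_bot hB P.ht P.ht' (ne_of_noncomm P.hnc))
  have h2 := P.dim hB
  omega

lemma Pair.dim_W (P : Pair H t t') :
    Module.finrank (ZMod p) (Fx t ⊓ Fx t' : Submodule (ZMod p) V)
      + 2 * Module.finrank (ZMod p) (Rt t) = Module.finrank (ZMod p) V := by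
  have hc := P.compl hB
  have h := finrank_sup_of_inf_bot hc.inf_eq_bot
  rw [hc.sup_eq_top, finrank_top, P.dim_E hB] at h
  omega

lemma Pair.exists_S (P : Pair H t t') (v : V) :
    ∃ s, IsRefl H s ∧ Fx t ⊓ Fx t' ≤ Fx s ∧ s v = v := by
  have := exists_refl_fix hB (H.mul_mem P.ht.mem P.ht'.mem) (mul_sq_ne_one hB P.ht P.ht' P.hnc) v
  rwa [P.Fx_mul hB] at this

lemma Pair.S_noncomm (P : Pair H t t') {s : V ≃ₗ[ZMod p] V} (hs : IsRefl H s)
    (hW : Fx t ⊓ Fx t' ≤ Fx s) : s * t ≠ t * s ∨ s * t' ≠ t' * s := by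
  by_contra hh
  push Not at hh
  obtain ⟨h1, h2⟩ := hh
  by_cases hst : s = t
  · subst hst
    exact P.hnc h2
  by_cases hst' : s = t'
  · subst hst'
    exact P.hnc h1.symm
  have h3 := Rt_le_Fx_of_comm hB hs P.ht hst h1
  have h4 := Rt_le_Fx_of_comm hB hs P.ht' hst' h2
  have hc := P.compl hB
  have h5 : Fx s = ⊤ := top_le_iff.1 (by
    rw [← hc.sup_eq_top]
    exact sup_le hW (sup_le h3 h4))
  apply hs.ne_one
  refine gl_ext fun v => ?_
  have : v ∈ Fx s := by rw [h5]; trivial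
  simpa using this

/-- Size of `F ⊓ E` for `F ⊇ W`. -/
lemma Pair.dim_inf (P : Pair H t t') {F : Submodule (ZMod p) V} (hF : Fx t ⊓ Fx t' ≤ F) :
    Module.finrank (ZMod p) (F ⊓ (Rt t ⊔ Rt t') : Submodule (ZMod p) V)
      + Module.finrank (ZMod p) V
      = Module.finrank (ZMod p) F + 2 * Module.finrank (ZMod p) (Rt t) := by
  have hc := P.compl hB
  have h1 : F ⊔ (Rt t ⊔ Rt t') = ⊤ := top_le_iff.1 (by
    rw [← hc.sup_eq_top]
    exact sup_le_sup_right hF _)
  rw [finrank_inf_add h1, P.dim_E hB]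

lemma Pair.exists_ne_zero_Rt (ht : IsRefl H t) : ∃ u ∈ Rt t, u ≠ 0 := by
  obtain ⟨y, hy⟩ := ht.exists_moved
  exact ⟨_, sub_mem_Rt t y, sub_ne_zero.2 hy⟩

lemma finrank_Rt_pos (ht : IsRefl H t) : 0 < Module.finrank (ZMod p) (Rt t) := by
  obtain ⟨u, hu, hu0⟩ := Pair.exists_ne_zero_Rt hB ht
  exact finrank_pos_of_mem hu hu0

/-- A non-identity element whose fixed space contains that of a reflection is a reflection. -/
lemma IsRefl.of_fix (ht : IsRefl H t) {g : V ≃ₗ[ZMod p] V} (hg : g ∈ H) (hg1 : g ≠ 1)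
    (h : ∀ v, t v = v → g v = v) : IsRefl H g := by
  refine ⟨hg, hg1, fun r hr hr1 hfix v hv => ?_⟩
  exact h v (ht.max r hr hr1 (fun w hw => hfix w (h w hw)) v hv)

/-- A vector fixed by all reflections vanishes, given that there is a reflection. -/
lemma eq_zero_of_refl_fix (hirr : Irr H) (ht : IsRefl H t) {v : V}
    (hv : ∀ r, IsRefl H r → r v = v) : v = 0 := by
  let W : Submodule (ZMod p) V := ⨅ (r : {r // IsRefl H r}), Fx r.1
  have hW : ∀ u, u ∈ W ↔ ∀ r, IsRefl H r → r u = u := by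
    intro u
    simp only [W, Submodule.mem_iInf, mem_Fx, Subtype.forall]
  have hinv : ∀ g ∈ H, ∀ w ∈ W, g w ∈ W := by
    intro g hg w hw
    rw [hW] at hw ⊢
    intro r hr
    have := hw _ (hr.conj hB (H.inv_mem hg))
    simp only [mul_app, inv_inv] at this
    have h2 := congrArg g this
    simpa using h2
  rcases hirr W hinv with h0 | h0
  · have : v ∈ W := (hW v).2 hv
    rw [h0] at this
    simpa using this
  · exfalso
    obtain ⟨y, hy⟩ := ht.exists_moved
    have : y ∈ W := by rw [h0]; trivial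
    exact hy ((hW y).1 this t ht)

end Pair

/-- The final data produced by the two tracks. -/
structure TopData (H : Subgroup (V ≃ₗ[ZMod p] V)) (α : ℕ) : Prop where
  hα : 0 < α
  hd : Module.finrank (ZMod p) V = 2 * α
  hR : ∀ s, IsRefl H s → Module.finrank (ZMod p) (Rt s) = α
  root : ∀ v, v ≠ 0 → ∃ s, IsRefl H s ∧ v ∈ Rt s
  fix : ∀ v, v ≠ 0 → ∃ s, IsRefl H s ∧ v ∈ Fx s
  fixuniq : ∀ s s', IsRefl H s → IsRefl H s' → s ≠ s' → Fx s ⊓ Fx s' = ⊥

end Cfsg.Agent.AffBin
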