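import Cfsg.Agent.Lib.Classical.AffBin.OddM
import Cfsg.Agent.Lib.Classical.AffBin.Even

/-! Binary primitive affine groups: from the top data to the field structure. -/

set_option autoImplicit false

namespace Cfsg.Agent.AffBin

universe u

variable {p : ℕ} [Fact p.Prime] {V : Type u} [AddCommGroup V] [Module (ZMod p) V]
variable {H : Subgroup (V ≃ₗ[ZMod p] V)}

/-- The dichotomy. -/
theorem dichotomy [Finite V] [Nontrivial V] (hB : BP H) (hirr : Irr H) :
    ((Nat.card V).Prime ∧ Nat.card H ≤ 2) ∨ ∃ α, TopData H α := by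
  by_cases hall : ∀ x ∈ H, x * x = 1
  · exact Or.inl (alt_one hirr hall)
  push Not at hall
  obtain ⟨x, hx, hx2⟩ := hall
  have hx1 : x ≠ 1 := by
    rintro rfl
    exact hx2 (mul_one _)
  obtain ⟨t, ht, -⟩ := exists_refl hx hx1
  right
  by_cases hp2 : p = 2
  · subst hp2
    refine even_top hB ?_ hirr ht
    intro v
    have h : (2 : ZMod 2) • v = 0 := by
      have : (2 : ZMod 2) = 0 := rfl
      rw [this, zero_smul]
    rwa [two_smul] at h
  · have h2 : (2 : ZMod p) ≠ 0 := by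
      intro h
      have : ((2 : ℕ) : ZMod p) = 0 := by exact_mod_cast h
      rw [ZMod.natCast_eq_zero_iff] at this
      exact hp2 ((Nat.prime_dvd_prime_iff_eq Fact.out Nat.prime_two).1 this)
    refine odd_top hB ?_ hirr hx hx2 ht
    intro v hv
    have : (2 : ZMod p) • v = 0 := by rwa [two_smul]
    exact (smul_eq_zero.1 this).resolve_left h2

section Top
variable [Finite V] (hB : BP H) {α : ℕ} (T : TopData H α) {s s' g k : V ≃ₗ[ZMod p] V}
include hB T

lemma TopData.finrank_Fx (hs : IsRefl H s) : Module.finrank (ZMod p) (Fx s) = α := by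
  have h1 := finrank_Rt_add_Fx s
  have h2 := T.hR s hs
  have h3 := T.hd
  omega

lemma TopData.exists_fix (hs : IsRefl H s) : ∃ y, y ≠ 0 ∧ s y = y := by
  have h := T.finrank_Fx hB hs
  obtain ⟨y, hy, hy0⟩ := exists_ne_zero_of_finrank_pos (A := Fx s) (by rw [h]; exact T.hα)
  exact ⟨y, hy0, mem_Fx.1 hy⟩

omit hB in
lemma TopData.exists_ne : ∃ y : V, y ≠ 0 := by
  have h := T.hd
  have h1 := T.hα
  obtain ⟨y, -, hy0⟩ := exists_ne_zero_of_finrank_pos (A := (⊤ : Submodule (ZMod p) V)) (by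
    rw [finrank_top]; omega)
  exact ⟨y, hy0⟩

omit hB in
lemma TopData.exists_refl : ∃ s, IsRefl H s := by
  obtain ⟨y, hy⟩ := T.exists_ne
  obtain ⟨s, hs, -⟩ := T.fix y hy
  exact ⟨s, hs⟩

lemma TopData.stab_eq (hs : IsRefl H s) {y : V} (hy0 : y ≠ 0) (hsy : s y = y) (hg : g ∈ H)
    (hg1 : g ≠ 1) (hgy : g y = y) : g = s := by
  refine eq_of_range_le hB hs hg hg1 fun z => ?_
  by_cases hz : g z = z
  · rw [hz, sub_self]
    exact Submodule.zero_mem _
  have hu0 : g z - z ≠ 0 := sub_ne_zero.2 hz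
  obtain ⟨r, hr, hur⟩ := T.root _ hu0
  have hfix := (hr.of_eq hB hg hur hu0 (z := z) (by abel)).2
  by_cases hrs : s = r
  · rw [hrs]
    exact hur
  · exfalso
    have h1 : y ∈ Fx s ⊓ Fx r := ⟨mem_Fx.2 hsy, mem_Fx.2 (hfix y hgy)⟩
    rw [T.fixuniq s r hs hr hrs] at h1
    exact hy0 (by simpa using h1)

lemma TopData.refl_of_fix (hg : g ∈ H) (hg1 : g ≠ 1) {y : V} (hy0 : y ≠ 0) (hgy : g y = y) :
    IsRefl H g := by
  obtain ⟨s, hs, hsy⟩ := T.fix y hy0
  rw [T.stab_eq hB hs hy0 (mem_Fx.1 hsy) hg hg1 hgy]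
  exact hs

lemma TopData.not_refl_mul (hs : IsRefl H s) (hs' : IsRefl H s') : ¬ IsRefl H (s * s') := by
  intro h
  by_cases hne : s = s'
  · subst hne
    exact h.ne_one (hs.sq hB)
  · obtain ⟨y, hy0, hy⟩ := T.exists_fix hB h
    have h1 := fix_mul hB hs hs' hne hy
    have h2 : y ∈ Fx s ⊓ Fx s' := ⟨mem_Fx.2 h1.1, mem_Fx.2 h1.2⟩
    rw [T.fixuniq s s' hs hs' hne] at h2
    exact hy0 (by simpa using h2)

lemma TopData.mul_refl (hk : k ∈ H) (hk' : ¬ IsRefl H k) (hs : IsRefl H s) : IsRefl H (k * s) := by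
  by_cases hk1 : k = 1
  · rw [hk1, one_mul]
    exact hs
  obtain ⟨y, hy0, hy⟩ := T.exists_fix hB hs
  have hky : k y ≠ y := fun h => hk' (T.refl_of_fix hB hk hk1 hy0 h)
  have hu0 : y - k y ≠ 0 := sub_ne_zero.2 hky.symm
  obtain ⟨r, hr, hur⟩ := T.root _ hu0
  have h1 := (hr.of_eq hB (H.inv_mem hk) hur hu0 (z := k y) (by simp)).1
  have h2 : (r * k) y = y := by
    rw [mul_app, h1]
    simp
  have hrk : r * k ∈ H := H.mul_mem hr.mem hk
  by_cases h3 : r * k = 1
  · exfalso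
    apply hk'
    have : k = r⁻¹ := by
      rw [eq_inv_iff_mul_eq_one, mul_eq_one_iff_eq_inv]
      rw [mul_eq_one_iff_eq_inv] at h3
      rw [h3, inv_inv]
    rw [this, hr.inv_eq hB]
    exact hr
  · have h4 := T.stab_eq hB hs hy0 hy hrk h3 h2
    have h5 : k * s = r := by
      have : k = r * s := by
        rw [← h4, ← mul_assoc, hr.sq hB, one_mul]
      rw [this, mul_assoc, hs.sq hB, mul_one]
    rw [h5]
    exact hr

/-- The rotation subgroup. -/
def TopData.K (T : TopData H α) (hB : BP H) : Subgroup (V ≃ₗ[ZMod p] V) where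
  carrier := {g | g ∈ H ∧ ¬ IsRefl H g}
  one_mem' := ⟨H.one_mem, fun h => h.ne_one rfl⟩
  inv_mem' := by
    rintro a ⟨h1, h2⟩
    refine ⟨H.inv_mem h1, fun h => h2 ?_⟩
    have := h.inv_eq hB
    rw [inv_inv] at this
    rw [this]
    exact h
  mul_mem' := by
    rintro a b ⟨h1, h2⟩ ⟨h3, h4⟩
    refine ⟨H.mul_mem h1 h3, ?_⟩
    obtain ⟨s, hs⟩ := T.exists_refl
    have h5 := T.mul_refl hB h3 h4 hs
    have h6 := T.mul_refl hB h1 h2 h5
    have h7 : a * b = a * (b * s) * s := by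
      rw [mul_assoc, mul_assoc, hs.sq hB, mul_one]
    rw [h7]
    exact T.not_refl_mul hB h6 hs

lemma TopData.mem_K : k ∈ T.K hB ↔ k ∈ H ∧ ¬ IsRefl H k := Iff.rfl

lemma TopData.K_inv (hs : IsRefl H s) (hk : k ∈ T.K hB) : s * k * s = k⁻¹ := by
  have h1 := T.mul_refl hB hk.1 hk.2 hs
  have h2 := h1.sq hB
  rw [eq_inv_iff_mul_eq_one]
  calc s * k * s * k = s * (k * s * k * s) * s⁻¹ := by group
    _ = s * ((k * s) * (k * s)) * s⁻¹ := by group
    _ = 1 := by rw [h2]; group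

lemma TopData.K_comm {k' : V ≃ₗ[ZMod p] V} (hk : k ∈ T.K hB) (hk' : k' ∈ T.K hB) : k * k' = k' * k := by
  obtain ⟨s, hs⟩ := T.exists_refl
  have h1 := T.K_inv hB hs hk
  have h2 := T.K_inv hB hs hk'
  have h3 := T.K_inv hB hs ((T.K hB).mul_mem hk hk')
  have h4 : s * (k * k') * s = (s * k * s) * (s * k' * s) := by
    have : (s * k * s) * (s * k' * s) = s * k * (s * s) * k' * s := by group
    rw [this, hs.sq hB]
    group
  rw [h4, h1, h2, mul_inv_rev] at h3
  have h5 : (k * k')⁻¹ = (k' * k)⁻¹ := by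
    rw [mul_inv_rev, mul_inv_rev, h3]
  exact inv_injective h5

lemma TopData.K_orbit {y : V} (hy0 : y ≠ 0) {h : V ≃ₗ[ZMod p] V} (hh : h ∈ H) :
    ∃ k ∈ T.K hB, k y = h y := by
  by_cases hr : IsRefl H h
  · obtain ⟨s, hs, hsy⟩ := T.fix y hy0
    exact ⟨h * s, ⟨H.mul_mem hh hs.mem, T.not_refl_mul hB hr hs⟩, by simp [mem_Fx.1 hsy]⟩
  · exact ⟨h, ⟨hh, hr⟩, rfl⟩

lemma TopData.K_irr (hirr : Irr H) (W : Submodule (ZMod p) V)
    (hW : ∀ k ∈ T.K hB, ∀ w ∈ W, k w ∈ W) : W = ⊥ ∨ W = ⊤ := by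
  apply hirr
  intro h hh w hw
  by_cases hw0 : w = 0
  · rw [hw0, map_zero]
    exact W.zero_mem
  · obtain ⟨k, hk, e⟩ := T.K_orbit hB hw0 hh
    rw [← e]
    exact hW k hk w hw

/-- Count of reflections. -/
lemma TopData.card_refl : Set.ncard {s | IsRefl H s} = p ^ α + 1 := by
  classical
  haveI : Fintype V := Fintype.ofFinite V
  haveI : Finite (V ≃ₗ[ZMod p] V) :=
    Finite.of_injective (fun f => (f : V → V)) DFunLike.coe_injective
  set q := p ^ α with hq
  have hp2 := (Fact.out : p.Prime).two_le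
  have hq2 : 2 ≤ q := le_trans hp2 (Nat.le_self_pow T.hα.ne' p)
  have hq' : p ^ (2 * α) = q ^ 2 := by rw [hq, ← pow_mul, mul_comm]
  let J : Finset (V ≃ₗ[ZMod p] V) := (Set.toFinite {s | IsRefl H s}).toFinset
  have hJ : ∀ s, s ∈ J ↔ IsRefl H s := fun s => by simp [J]
  let A : (V ≃ₗ[ZMod p] V) → Finset V := fun s => Finset.univ.filter (fun v => v ∈ Fx s ∧ v ≠ 0)
  have hcA : ∀ s ∈ J, (A s).card = q - 1 := by
    intro s hs
    simp only [A]
    rw [card_mem_ne, T.finrank_Fx hB ((hJ s).1 hs)]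
  have hpA : (J : Set (V ≃ₗ[ZMod p] V)).PairwiseDisjoint A := by
    intro s hs s' hs' hne
    rw [Function.onFun, Finset.disjoint_left]
    intro v hv hv'
    simp only [A, Finset.mem_filter, Finset.mem_univ, true_and] at hv hv'
    have h3 : v ∈ Fx s ⊓ Fx s' := ⟨hv.1, hv'.1⟩
    rw [T.fixuniq s s' ((hJ s).1 hs) ((hJ s').1 hs') hne] at h3
    exact hv.2 (by simpa using h3)
  have hU : J.biUnion A = Finset.univ.filter (fun v => v ∈ (⊤ : Submodule (ZMod p) V) ∧ v ≠ 0) := by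
    ext v
    simp only [Finset.mem_biUnion, A, Finset.mem_filter, Finset.mem_univ, true_and, Submodule.mem_top]
    constructor
    · rintro ⟨s, -, -, h⟩
      exact h
    · intro h
      obtain ⟨s, hs, hsv⟩ := T.fix v h
      exact ⟨s, (hJ s).2 hs, hsv, h⟩
  have h1 := congrArg Finset.card hU
  rw [Finset.card_biUnion hpA, Finset.sum_congr rfl hcA, Finset.sum_const, smul_eq_mul, card_mem_ne,
    finrank_top, T.hd, hq'] at h1
  have h2 : J.card = q + 1 := by
    have h3 : q ^ 2 - 1 = (q + 1) * (q - 1) := by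
      have := Nat.sq_sub_sq q 1
      simpa using this
    rw [h3] at h1
    exact Nat.eq_of_mul_eq_mul_right (by omega) h1
  rw [← h2, Set.ncard_eq_toFinset_card _ (Set.toFinite _)]

lemma TopData.card_K : Set.ncard (T.K hB : Set (V ≃ₗ[ZMod p] V)) = p ^ α + 1 := by
  classical
  obtain ⟨s₀, hs₀⟩ := T.exists_refl
  rw [← T.card_refl hB]
  have h : {s | IsRefl H s} = (fun k : V ≃ₗ[ZMod p] V => k * s₀) '' (T.K hB : Set (V ≃ₗ[ZMod p] V)) := by
    ext s
    simp only [Set.mem_ofPred_eq, Set.mem_image]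
    constructor
    · intro hs
      refine ⟨s * s₀, ⟨H.mul_mem hs.mem hs₀.mem, T.not_refl_mul hB hs hs₀⟩, ?_⟩
      rw [mul_assoc, hs₀.sq hB, mul_one]
    · rintro ⟨k, hk, rfl⟩
      exact T.mul_refl hB hk.1 hk.2 hs₀
  rw [h, Set.ncard_image_of_injective _ (mul_left_injective s₀)]

omit hB T in
lemma coe_pow_gl (k : V ≃ₗ[ZMod p] V) (n : ℕ) :
    ((k : V →ₗ[ZMod p] V) : Module.End (ZMod p) V) ^ n = ((k ^ n : V ≃ₗ[ZMod p] V) : V →ₗ[ZMod p] V) := by
  induction n with
  | zero => rfl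
  | succ n ih =>
    rw [pow_succ, pow_succ, ih]
    rfl

/-- The rotations as endomorphisms. -/
def TopData.KS (T : TopData H α) (hB : BP H) : Set (Module.End (ZMod p) V) :=
  {f | ∃ k ∈ T.K hB, f = (k : V →ₗ[ZMod p] V)}

/-- The field: the centralizer of the rotations. -/
def TopData.D (T : TopData H α) (hB : BP H) : Subalgebra (ZMod p) (Module.End (ZMod p) V) :=
  Subalgebra.centralizer (ZMod p) (T.KS hB)

lemma TopData.mem_D {f : Module.End (ZMod p) V} :
    f ∈ T.D hB ↔ ∀ k ∈ T.K hB, ∀ v, k (f v) = f (k v) := by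
  constructor
  · intro h k hk v
    have := (Subalgebra.mem_centralizer_iff (ZMod p)).1 h (k : V →ₗ[ZMod p] V) ⟨k, hk, rfl⟩
    have h2 := congrArg (fun g : Module.End (ZMod p) V => g v) this
    simpa using h2
  · intro h
    refine (Subalgebra.mem_centralizer_iff (ZMod p)).2 ?_
    rintro g ⟨k, hk, rfl⟩
    ext v
    simpa using h k hk v

lemma TopData.D_inj (hirr : Irr H) {f : Module.End (ZMod p) V} (hf : f ∈ T.D hB) (h0 : f ≠ 0) :
    Function.Injective f := by
  have hf' := (T.mem_D hB).1 hf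
  rcases T.K_irr hB hirr (LinearMap.ker f) (fun k hk w hw => by
    rw [LinearMap.mem_ker] at hw ⊢
    rw [← hf' k hk, hw, map_zero]) with h | h
  · exact LinearMap.ker_eq_bot.1 h
  · exact absurd (LinearMap.ker_eq_top.1 h) h0

lemma TopData.K_mem_D (hk : k ∈ T.K hB) : ((k : V →ₗ[ZMod p] V) : Module.End (ZMod p) V) ∈ T.D hB := by
  rw [T.mem_D hB]
  intro k' hk' v
  have := T.K_comm hB hk' hk
  have h2 := congrArg (fun g : V ≃ₗ[ZMod p] V => g v) this
  simpa using h2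

omit hB T in
lemma finite_end : Finite (Module.End (ZMod p) V) :=
  Finite.of_injective (fun f => (f : V → V)) DFunLike.coe_injective

/-- The field structure. -/
theorem top_field (hirr : Irr H) : ∃ (D : Type u) (_ : Ring D) (_ : IsField D) (_ : Finite D)
    (ι : D ≃+ V) (σ : D ≃+* D) (K₀ : Set D), (∀ z, σ (σ z) = z) ∧ (∃ z, σ z ≠ z) ∧
      Nat.card D = (p ^ α) ^ 2 ∧ K₀.ncard = p ^ α + 1 ∧ (∀ k ∈ K₀, k ^ (p ^ α + 1) = 1) ∧
      (∀ h ∈ H, ∃ k ∈ K₀, (∀ z, h (ι z) = ι (k * z)) ∨ (∀ z, h (ι z) = ι (k * σ z))) ∧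
      (∀ k ∈ K₀, ∃ h ∈ H, ∀ z, h (ι z) = ι (k * z)) ∧
      (∀ k ∈ K₀, ∃ h ∈ H, ∀ z, h (ι z) = ι (k * σ z)) := by
  classical
  haveI : Finite (Module.End (ZMod p) V) := finite_end
  haveI : Module.Finite (ZMod p) V := Module.Finite.of_finite
  obtain ⟨v₀, hv₀⟩ := T.exists_ne
  obtain ⟨s₀, hs₀, hs₀v⟩ := T.fix v₀ hv₀
  have hs₀v' : s₀ v₀ = v₀ := mem_Fx.1 hs₀v
  have hs₀s : ∀ v, s₀ (s₀ v) = v := hs₀.invol hB
  let D := T.D hB
  have hDmem := fun f => T.mem_D hB (f := f)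
  have hDinj := fun (f : Module.End (ZMod p) V) => T.D_inj hB hirr (f := f)
  haveI hNT : Nontrivial D := ⟨⟨0, 1, fun h => hv₀ (by
    have := congrArg (fun f : D => f.1 v₀) h
    simpa using this.symm)⟩⟩
  haveI hNZ : NoZeroDivisors D := ⟨by
    intro f g hfg
    by_cases hf : f = 0
    · exact Or.inl hf
    right
    have hf' : f.1 ≠ 0 := fun h => hf (Subtype.ext h)
    have hi := hDinj f.1 f.2 hf'
    apply Subtype.ext
    ext v
    apply hi
    have := congrArg (fun e : D => e.1 v) hfg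
    simpa using this⟩
  haveI hDom : IsDomain D := NoZeroDivisors.to_isDomain D
  have hField : IsField D := Finite.isDomain_to_isField D
  -- the evaluation
  let ιL : D →ₗ[ZMod p] V :=
    { toFun := fun f => f.1 v₀
      map_add' := fun _ _ => rfl
      map_smul' := fun _ _ => rfl }
  have hιL : ∀ f, ιL f = f.1 v₀ := fun _ => rfl
  have hinj : Function.Injective ιL := by
    intro f g hfg
    by_contra hne
    have h1 : (f - g).1 ≠ 0 := fun h => hne (sub_eq_zero.1 (Subtype.ext h))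
    have hi := hDinj (f - g).1 (f - g).2 h1
    apply hv₀
    apply hi
    have : (f - g).1 v₀ = f.1 v₀ - g.1 v₀ := rfl
    rw [this, map_zero, sub_eq_zero]
    exact hfg
  have hkD := fun (k : V ≃ₗ[ZMod p] V) (hk : k ∈ T.K hB) => T.K_mem_D hB hk
  have hsurj : Function.Surjective ιL := by
    rw [← LinearMap.range_eq_top]
    rcases T.K_irr hB hirr (LinearMap.range ιL) (by
      rintro k hk _ ⟨f, rfl⟩
      exact ⟨⟨_, hkD k hk⟩ * f, rfl⟩) with h | h
    · exfalso
      have : ιL 1 ∈ LinearMap.range ιL := ⟨1, rfl⟩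
      rw [h, Submodule.mem_bot] at this
      exact hv₀ this
    · exact h
  let ι : D ≃+ V := AddEquiv.ofBijective ιL.toAddMonoidHom ⟨hinj, hsurj⟩
  have hι : ∀ f, ι f = f.1 v₀ := fun _ => rfl
  -- the involution
  have hkinv : ∀ k ∈ T.K hB, ∀ w, k (s₀ w) = s₀ (k⁻¹ w) := by
    intro k hk w
    have h1 := T.K_inv hB hs₀ ((T.K hB).inv_mem hk)
    rw [inv_inv] at h1
    have h2 := congrArg (fun g : V ≃ₗ[ZMod p] V => g (s₀ w)) h1
    simp only [mul_app, hs₀s] at h2
    exact h2.symm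
  have hconj : ∀ f : D, ((s₀ : V →ₗ[ZMod p] V) * f.1 * (s₀ : V →ₗ[ZMod p] V) : Module.End (ZMod p) V) ∈ D := by
    intro f
    refine (hDmem _).2 fun k hk v => ?_
    have hf := (hDmem f.1).1 f.2 k⁻¹ ((T.K hB).inv_mem hk)
    have h3 : k⁻¹ (s₀ v) = s₀ (k v) := by
      have := hkinv k⁻¹ ((T.K hB).inv_mem hk) v
      rwa [inv_inv] at this
    have h1 : k (s₀ (f.1 (s₀ v))) = s₀ (f.1 (s₀ (k v))) := by
      rw [hkinv k hk, hf, h3]
    simpa using h1
  let σ : D ≃+* D :=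
    { toFun := fun f => ⟨_, hconj f⟩
      invFun := fun f => ⟨_, hconj f⟩
      left_inv := by
        intro f
        apply Subtype.ext
        ext v
        simp [hs₀s]
      right_inv := by
        intro f
        apply Subtype.ext
        ext v
        simp [hs₀s]
      map_mul' := by
        intro f g
        apply Subtype.ext
        ext v
        simp [hs₀s]
      map_add' := by
        intro f g
        apply Subtype.ext
        ext v
        simp }
  have hσ : ∀ (f : D) v, (σ f).1 v = s₀ (f.1 (s₀ v)) := fun _ _ => rfl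
  have hσσ : ∀ z, σ (σ z) = z := by
    intro z
    apply Subtype.ext
    ext v
    rw [hσ, hσ, hs₀s, hs₀s]
  let K₀ : Set D := {f | ∃ k ∈ T.K hB, f.1 = (k : V →ₗ[ZMod p] V)}
  have hK₀card : K₀.ncard = p ^ α + 1 := by
    rw [← T.card_K hB]
    have hinjc : Function.Injective (fun k : V ≃ₗ[ZMod p] V => ((k : V →ₗ[ZMod p] V) : Module.End (ZMod p) V)) := by
      intro a b hab
      exact gl_ext fun v => by
        have := congrArg (fun g : Module.End (ZMod p) V => g v) hab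
        simpa using this
    calc K₀.ncard = (Subtype.val '' K₀).ncard :=
          (Set.ncard_image_of_injective _ Subtype.val_injective).symm
      _ = ((fun k : V ≃ₗ[ZMod p] V => ((k : V →ₗ[ZMod p] V) : Module.End (ZMod p) V)) ''
            (T.K hB : Set (V ≃ₗ[ZMod p] V))).ncard := by
          congr 1
          ext g
          simp only [Set.mem_image]
          constructor
          · rintro ⟨f, ⟨k, hk, hfk⟩, rfl⟩
            exact ⟨k, hk, hfk.symm⟩
          · rintro ⟨k, hk, rfl⟩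
            exact ⟨⟨_, hkD k hk⟩, ⟨k, hk, rfl⟩, rfl⟩
      _ = _ := Set.ncard_image_of_injective _ hinjc
  have hnotid : ∃ z, σ z ≠ z := by
    by_contra hh
    push Not at hh
    have hsub : K₀ ⊆ {1, -1} := by
      rintro f ⟨k, hk, hfk⟩
      have h1 := hh ⟨_, hkD k hk⟩
      have h2 : s₀ * k * s₀ = k := by
        apply gl_ext
        intro v
        have := congrArg (fun e : D => e.1 v) h1
        simpa [hσ] using this
      have h3 : k⁻¹ = k := by
        rw [← T.K_inv hB hs₀ hk, h2]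
      have h4 : f * f = 1 := by
        apply Subtype.ext
        rw [Subalgebra.coe_mul, hfk]
        ext v
        have h5 := congrArg (fun e : V ≃ₗ[ZMod p] V => e v) (mul_eq_one_iff_eq_inv.2 h3.symm)
        simpa using h5
      exact mul_self_eq_one_iff.1 h4
    have h1 := Set.ncard_le_ncard hsub (Set.toFinite _)
    have h2 := Set.ncard_insert_le (1 : D) {-1}
    rw [Set.ncard_singleton] at h2
    have hp2 := (Fact.out : p.Prime).two_le
    have hq2 : 2 ≤ p ^ α := le_trans hp2 (Nat.le_self_pow T.hα.ne' p)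
    omega
  have hpow : ∀ k ∈ K₀, k ^ (p ^ α + 1) = 1 := by
    rintro f ⟨k, hk, hfk⟩
    apply Subtype.ext
    rw [SubmonoidClass.coe_pow, hfk, coe_pow_gl]
    have h1 : Nat.card (T.K hB) = p ^ α + 1 := T.card_K hB
    have h2 : ((⟨k, hk⟩ : T.K hB)) ^ (p ^ α + 1) = 1 := by
      rw [← h1]
      exact pow_card_eq_one'
    have h3 : k ^ (p ^ α + 1) = 1 := congrArg Subtype.val h2
    rw [h3]
    rfl
  have hcardD : Nat.card D = (p ^ α) ^ 2 := by
    rw [Nat.card_congr ι.toEquiv, Module.natCard_eq_pow_finrank (K := ZMod p) (V := V),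
      Nat.card_zmod, T.hd, ← pow_mul, mul_comm]
  refine ⟨↥D, inferInstance, hField, inferInstance, ι, σ, K₀, hσσ, hnotid, hcardD, hK₀card, hpow,
    ?_, ?_, ?_⟩
  · intro h hh
    by_cases hr : IsRefl H h
    · have hK : h * s₀ ∈ T.K hB := ⟨H.mul_mem hh hs₀.mem, T.not_refl_mul hB hr hs₀⟩
      refine ⟨⟨_, hkD _ hK⟩, ⟨_, hK, rfl⟩, Or.inr fun z => ?_⟩
      show h (z.1 v₀) = (h * s₀) ((σ z).1 v₀)
      rw [hσ, mul_app, hs₀s, hs₀v']
    · exact ⟨⟨_, hkD h ⟨hh, hr⟩⟩, ⟨h, ⟨hh, hr⟩, rfl⟩, Or.inl fun z => rfl⟩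
  · rintro f ⟨k, hk, hfk⟩
    refine ⟨k, hk.1, fun z => ?_⟩
    show k (z.1 v₀) = (f.1 * z.1) v₀
    rw [hfk]
    rfl
  · rintro f ⟨k, hk, hfk⟩
    refine ⟨k * s₀, H.mul_mem hk.1 hs₀.mem, fun z => ?_⟩
    show k (s₀ (z.1 v₀)) = (f.1 * (σ z).1) v₀
    rw [hfk]
    show _ = k ((σ z).1 v₀)
    rw [hσ, hs₀v']

end Top

end Cfsg.Agent.AffBin
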